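import Cfsg.Agent.QBaer.OnePrime
import Cfsg.Agent.H72.Kazarin

/-!
# Baer's theorem on `q`-elements of prime power class size, III (helper15)

The structure of `G` when all `q`-elements have `p`-power class size.
-/

set_option autoImplicit false
set_option linter.style.haveILetI false

namespace Cfsg.Agent.QBaer

open Subgroup Cfsg.Agent.H72
open scoped Pointwise commutatorElement

variable {G : Type*} [Group G] [Finite G] {q : ℕ} [Fact q.Prime]

/-- Case `p = q`. -/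
theorem case_eq (hB : ∀ x : G, QEl q x → ∃ a, (Cx x).index = q ^ a) (Q : Sylow q G) :
    (Q : Subgroup G).Normal ∧ ∃ N : Subgroup G, N.Normal ∧ N.IsComplement' (Q : Subgroup G) := by
  have hQ : (Q : Subgroup G) = Cfsg.pCore q G := by
    apply le_antisymm
    · intro x hx
      obtain ⟨a, ha⟩ := hB x (qel_of_mem Q.isPGroup' hx)
      exact mem_pCore_of_index_pow (qel_of_mem Q.isPGroup' hx) ha
    · exact H49.pCore_le_sylow Q
  have hQn : (Q : Subgroup G).Normal := by rw [hQ]; exact H49.pCore_normal' q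
  refine ⟨hQn, ?_⟩
  have hcop : Nat.Coprime (Nat.card (Q : Subgroup G)) (Q : Subgroup G).index := Q.card_coprime_index
  obtain ⟨H, hH⟩ := Subgroup.exists_right_complement'_of_coprime hcop
  refine ⟨H, ?_, hH.symm⟩
  have hcard : Nat.card H = (Q : Subgroup G).index := hH.symm.index_eq_card.symm
  have hcomm : ∀ h ∈ H, ∀ w ∈ (Q : Subgroup G), h * w = w * h := by
    intro h hh w hw
    have h1 : (orderOf h).Coprime q := by
      have h2 : orderOf h ∣ Nat.card H := Subgroup.orderOf_dvd_natCard H hh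
      rw [hcard] at h2
      exact Nat.Coprime.coprime_dvd_left h2
        ((Nat.Prime.coprime_iff_not_dvd Fact.out).2 Q.not_dvd_index).symm
    have h3 := coprime_trivial (q := q) (O := (Q : Subgroup G)) (Z1 := ⊥) hQn Q.isPGroup'
      inferInstance bot_le (fun w hw _ => hB w (qel_of_mem Q.isPGroup' hw)) h h1 w hw
    rw [mem_bot] at h3
    have h4 : h * w * h⁻¹ = w := by
      rwa [mul_inv_eq_one] at h3
    exact mul_inv_eq_iff_eq_mul.1 h4
  constructor
  intro k hk g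
  have hg : g ∈ (Q : Subgroup G) ⊔ H := by rw [hH.sup_eq_top]; exact mem_top g
  rw [mem_sup_of_normal_left] at hg
  obtain ⟨w, hw, h, hh, rfl⟩ := hg
  have h1 : w * h * k * (w * h)⁻¹ = w * (h * k * h⁻¹) * w⁻¹ := by group
  have h2 : h * k * h⁻¹ ∈ H := mul_mem (mul_mem hh hk) (inv_mem hh)
  rw [h1, ← hcomm _ h2 w hw, mul_assoc, mul_inv_cancel, mul_one]
  exact h2

theorem isPGroup_closure_of_comm {G : Type*} [Group G] {q : ℕ} [Fact q.Prime] {S : Set G}
    (hS : ∀ x ∈ S, QEl q x) (hc : ∀ x ∈ S, ∀ y ∈ S, x * y = y * x) : IsPGroup q (closure S) := by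
  have hcm := isMulCommutative_closure hc
  have key : ∀ x ∈ closure S, QEl q x := by
    intro x hx
    induction hx using closure_induction with
    | mem x h => exact hS x h
    | one => exact ⟨0, by simp⟩
    | mul x y hx hy h1 h2 =>
      exact h1.mul_of_commute h2 (setLike_mul_comm hx hy)
    | inv x hx h => 
      obtain ⟨k, hk⟩ := h
      exact ⟨k, by rw [orderOf_inv, hk]⟩
  rw [IsPGroup.iff_orderOf]
  rintro ⟨x, hx⟩
  obtain ⟨k, hk⟩ := key x hx
  exact ⟨k, by rwa [Subgroup.orderOf_mk]⟩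

/-- conjugates of an element of `p`-power class size commute modulo `O_p(G)` -/
theorem commutator_mem_pCore {p : ℕ} [hp : Fact p.Prime] {x : G}
    (hx : ∃ a : ℕ, (Subgroup.centralizer ({x} : Set G)).index = p ^ a) (g h : G) :
    (g * x * g⁻¹) * (h * x * h⁻¹) * (g * x * g⁻¹)⁻¹ * (h * x * h⁻¹)⁻¹ ∈ Cfsg.pCore p G := by
  classical
  obtain ⟨a, ha⟩ := hx
  set O := Cfsg.pCore p G with hO
  set π := QuotientGroup.mk' O with hπ
  have hsurj : Function.Surjective π := QuotientGroup.mk'_surjective O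
  have hidx : ∃ b, (Subgroup.centralizer ({π x} : Set (G ⧸ O))).index = p ^ b := by
    have h1 : (Subgroup.centralizer ({π x} : Set (G ⧸ O))).index ∣ p ^ a := by
      rw [← ha, ← Subgroup.index_comap_of_surjective _ hsurj]
      apply Subgroup.index_dvd_of_le
      intro c hc
      rw [Subgroup.mem_centralizer_singleton_iff] at hc
      rw [Subgroup.mem_comap, Subgroup.mem_centralizer_singleton_iff, ← map_mul, ← map_mul, hc]
    obtain ⟨b, -, hb⟩ := (Nat.dvd_prime_pow hp.out).1 h1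
    exact ⟨b, hb⟩
  have hcomm := commute_of_pCore_eq_bot (G := G ⧸ O) (p := p) (Solv.pCore_quotient_pCore p) (π x)
    hidx (π g) (π h)
  rw [← QuotientGroup.eq_one_iff]
  show π _ = 1
  simp only [map_mul, map_inv]
  rw [hcomm]
  group

/-- modulo `O_p(G)` the `q`-elements lie in `O_q`. -/
theorem map_mem_pCore {p : ℕ} [Fact p.Prime] {x : G} (hx : QEl q x)
    (h : ∃ a, (Cx x).index = p ^ a) :
    QuotientGroup.mk' (Cfsg.pCore p G) x ∈ Cfsg.pCore q (G ⧸ Cfsg.pCore p G) := by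
  set π := QuotientGroup.mk' (Cfsg.pCore p G) with hπ
  have hcomm : ∀ g h : G, (π g * π x * (π g)⁻¹) * (π h * π x * (π h)⁻¹) =
      (π h * π x * (π h)⁻¹) * (π g * π x * (π g)⁻¹) := by
    intro g h'
    have h1 := commutator_mem_pCore h g h'
    rw [← QuotientGroup.eq_one_iff] at h1
    have h2 : π (g * x * g⁻¹ * (h' * x * h'⁻¹) * (g * x * g⁻¹)⁻¹ * (h' * x * h'⁻¹)⁻¹) = 1 := h1
    simp only [map_mul, map_inv] at h2
    have h3 : (π g * π x * (π g)⁻¹) * (π h' * π x * (π h')⁻¹) =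
      ((π g * π x * (π g)⁻¹) * (π h' * π x * (π h')⁻¹) * (π g * π x * (π g)⁻¹)⁻¹ *
        (π h' * π x * (π h')⁻¹)⁻¹) * ((π h' * π x * (π h')⁻¹) * (π g * π x * (π g)⁻¹)) := by group
    rw [h3, h2, one_mul]
  have hsurj : Function.Surjective π := QuotientGroup.mk'_surjective _
  have h1 : IsPGroup q (normalClosure ({π x} : Set (G ⧸ Cfsg.pCore p G))) := by
    rw [normalClosure]
    have hmem : ∀ z ∈ Group.conjugatesOfSet ({π x} : Set (G ⧸ Cfsg.pCore p G)),
        ∃ g : G, z = π g * π x * (π g)⁻¹ := by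
      intro z hz
      rw [Group.mem_conjugatesOfSet_iff] at hz
      obtain ⟨w, hw, hwz⟩ := hz
      rw [Set.mem_singleton_iff] at hw
      subst hw
      obtain ⟨c, hc⟩ := isConj_iff.1 hwz
      obtain ⟨g, rfl⟩ := hsurj c
      exact ⟨g, hc.symm⟩
    apply isPGroup_closure_of_comm
    · intro z hz
      obtain ⟨g, rfl⟩ := hmem z hz
      have hpx : QEl q (π x) := by
        obtain ⟨n, hn⟩ := qel_iff.1 hx
        exact qel_iff.2 ⟨n, by rw [← map_pow, hn, map_one]⟩
      exact hpx.conj (π g)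
    · intro y hy z hz
      obtain ⟨g, rfl⟩ := hmem y hy
      obtain ⟨h', rfl⟩ := hmem z hz
      exact hcomm g h'
  exact H49.le_pCore normalClosure_normal h1 (subset_normalClosure (Set.mem_singleton _))

theorem map_eq_pCore {p : ℕ} [Fact p.Prime] (hB : ∀ x : G, QEl q x → ∃ a, (Cx x).index = p ^ a)
    (Q : Sylow q G) :
    (Q : Subgroup G).map (QuotientGroup.mk' (Cfsg.pCore p G)) = Cfsg.pCore q (G ⧸ Cfsg.pCore p G) := by
  apply le_antisymm
  · rintro _ ⟨x, hx, rfl⟩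
    exact map_mem_pCore (qel_of_mem Q.isPGroup' hx) (hB x (qel_of_mem Q.isPGroup' hx))
  · exact H49.pCore_le_sylow (Q.mapSurjective (QuotientGroup.mk'_surjective (Cfsg.pCore p G)))

omit [Finite G] in
theorem disjoint_pCore {p : ℕ} [hp : Fact p.Prime] (hpq : p ≠ q) (Q : Sylow q G) :
    Cfsg.pCore p G ⊓ (Q : Subgroup G) = ⊥ := by
  apply disjoint_iff.1
  exact IsPGroup.disjoint_of_ne p q hpq _ _ (H49.pCore_isPGroup p) Q.isPGroup'

theorem case_ne_comm {p : ℕ} [hp : Fact p.Prime] (hpq : p ≠ q)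
    (hB : ∀ x : G, QEl q x → ∃ a, (Cx x).index = p ^ a) (Q : Sylow q G) :
    ∀ x ∈ (Q : Subgroup G), ∀ y ∈ (Q : Subgroup G), x * y = y * x := by
  intro x hx y hy
  set π := QuotientGroup.mk' (Cfsg.pCore p G) with hπ
  have hxq := qel_of_mem Q.isPGroup' hx
  obtain ⟨a, ha⟩ := hB x hxq
  have h1 : ¬ q ∣ (Cx x).index := by
    rw [ha]
    intro hd
    exact hpq ((Nat.prime_dvd_prime_iff_eq Fact.out hp.out).1
      ((Fact.out : q.Prime).dvd_of_dvd_pow hd)).symm
  obtain ⟨P1, -, hP1⟩ := exists_sylow_central hxq h1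
  have h2 : π y ∈ (P1 : Subgroup G).map π := by
    rw [hπ, map_eq_pCore hB P1, ← map_eq_pCore hB Q]
    exact mem_map_of_mem _ hy
  obtain ⟨y1, hy1, hyy⟩ := h2
  have h3 : y1 * x = x * y1 := mem_Cx.1 (hP1 hy1)
  have h4 : π (x * y * x⁻¹ * y⁻¹) = 1 := by
    simp only [map_mul, map_inv]
    rw [← hyy, ← map_mul, ← h3, map_mul]; group
  have h5' : x * y * x⁻¹ * y⁻¹ ∈ (Q : Subgroup G) :=
    mul_mem (mul_mem (mul_mem hx hy) (inv_mem hx)) (inv_mem hy)
  have h5 : x * y * x⁻¹ * y⁻¹ ∈ Cfsg.pCore p G ⊓ (Q : Subgroup G) :=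
    ⟨(QuotientGroup.eq_one_iff _).1 h4, h5'⟩
  rw [disjoint_pCore hpq Q, mem_bot] at h5
  have h6 : x * y = (x * y * x⁻¹ * y⁻¹) * (y * x) := by group
  rw [h6, h5, one_mul]

theorem case_ne_normal {p : ℕ} [hp : Fact p.Prime] 
    (hB : ∀ x : G, QEl q x → ∃ a, (Cx x).index = p ^ a) (Q : Sylow q G) :
    (Cfsg.pCore p G ⊔ (Q : Subgroup G)).Normal := by
  have h1 : Cfsg.pCore p G ⊔ (Q : Subgroup G) =
      ((Q : Subgroup G).map (QuotientGroup.mk' (Cfsg.pCore p G))).comap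
        (QuotientGroup.mk' (Cfsg.pCore p G)) := by
    rw [comap_map_eq, QuotientGroup.ker_mk', sup_comm]
  rw [h1, map_eq_pCore hB Q]
  have : (Cfsg.pCore q (G ⧸ Cfsg.pCore p G)).Normal := H49.pCore_normal' q
  infer_instance

/-- part (A), case `p = q` -/
theorem part_A_eq (Q : Sylow q G) (hQ : (Q : Subgroup G).Normal) :
    ∃ K L : Subgroup G, K.Normal ∧ L.Normal ∧ K ≤ L ∧ (Nat.card K).Coprime q ∧
      (∃ m : ℕ, K.relIndex L = q ^ m) ∧ L.index.Coprime q := by
  refine ⟨⊥, Q, inferInstance, hQ, bot_le, by simp, ?_, ?_⟩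
  · rw [relIndex_bot_left]
    exact IsPGroup.iff_card.1 Q.isPGroup'
  · exact ((Nat.Prime.coprime_iff_not_dvd Fact.out).2 Q.not_dvd_index).symm

/-- part (A), case `p ≠ q` -/
theorem part_A_ne {p : ℕ} [hp : Fact p.Prime] (hpq : p ≠ q)
    (hB : ∀ x : G, QEl q x → ∃ a, (Cx x).index = p ^ a) (Q : Sylow q G) :
    ∃ K L : Subgroup G, K.Normal ∧ L.Normal ∧ K ≤ L ∧ (Nat.card K).Coprime q ∧
      (∃ m : ℕ, K.relIndex L = q ^ m) ∧ L.index.Coprime q := by
  have hn : (Cfsg.pCore p G).Normal := H49.pCore_normal' p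
  refine ⟨Cfsg.pCore p G, Cfsg.pCore p G ⊔ (Q : Subgroup G), hn, case_ne_normal hB Q, le_sup_left,
    ?_, ?_, ?_⟩
  · obtain ⟨k, hk⟩ := IsPGroup.iff_card.1 (H49.pCore_isPGroup (G := G) p)
    rw [hk]
    exact Nat.Coprime.pow_left _ ((Nat.coprime_primes hp.out Fact.out).2 hpq)
  · rw [relIndex_sup_left]
    obtain ⟨k, hk⟩ := IsPGroup.iff_card.1 Q.isPGroup'
    have h1 : (Cfsg.pCore p G).relIndex (Q : Subgroup G) ∣ q ^ k := by
      rw [← hk]; exact relIndex_dvd_card _ _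
    obtain ⟨m, -, hm⟩ := (Nat.dvd_prime_pow Fact.out).1 h1
    exact ⟨m, hm⟩
  · refine Nat.Coprime.coprime_dvd_left (Subgroup.index_dvd_of_le (le_sup_right)) ?_
    exact ((Nat.Prime.coprime_iff_not_dvd Fact.out).2 Q.not_dvd_index).symm

end Cfsg.Agent.QBaer
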