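import Cfsg.Agent.QBaer.Perfect
import Cfsg.Agent.QBaer.Structure

/-!
# Baer's theorem on `q`-elements of prime power class size, last part (helper15)
-/

set_option autoImplicit false
set_option linter.style.haveILetI false

namespace Cfsg.Agent.QBaer

open Subgroup Cfsg.Agent.H72
open scoped Pointwise commutatorElement

universe u

theorem exists_derived_eq (R : Type*) [Group R] [Finite R] :
    ∃ k, derivedSeries R k = derivedSeries R (k + 1) := by
  obtain ⟨D, hD⟩ := (Set.toFinite (Set.range (derivedSeries R))).exists_minimal ⟨_, 0, rfl⟩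
  obtain ⟨k, hk⟩ := hD.prop
  refine ⟨k, ?_⟩
  have h1 : derivedSeries R (k + 1) ≤ derivedSeries R k := by
    rw [derivedSeries_succ]
    exact Subgroup.commutator_le_left _ _
  have h2 := hD.eq_of_le (y := derivedSeries R (k + 1)) ⟨k + 1, rfl⟩ (by rw [← hk]; exact h1)
  rw [hk, h2]

theorem exists_derived_trivial {R : Type*} [Group R] [Finite R] {V : Type*} [AddCommGroup V]
    [Finite V] [DistribMulAction R V] {q : ℕ} [hq : Fact q.Prime] (hq2 : q ≠ 2) {n : ℕ}
    (hV : ∀ v : V, q ^ n • v = 0) (hcop : (Nat.card R).Coprime q)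
    (horb : ∀ v : V, ∃ a, (MulAction.stabilizer R v).index = 2 ^ a) :
    ∃ k, ∀ g ∈ derivedSeries R k, ∀ v : V, g • v = v := by
  obtain ⟨k, hk⟩ := exists_derived_eq R
  refine ⟨k, ?_⟩
  set D := derivedSeries R k with hD
  have hDn : D.Normal := by rw [hD]; exact derivedSeries_normal R k
  have hperf : commutator D = ⊤ := by
    have h1 : (commutator D).map D.subtype = D := by
      rw [Subgroup.map_subtype_commutator]
      rw [hD] at hk ⊢
      rw [derivedSeries_succ] at hk
      exact hk.symm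
    apply Subgroup.map_injective D.subtype_injective
    rw [h1, ← MonoidHom.range_eq_map, Subgroup.range_subtype]
  have h2 := trivial_of_perfect (R := D) (V := V) hq2 hV hperf
    (Nat.Coprime.coprime_dvd_left (Subgroup.card_subgroup_dvd_card D) hcop) (by
      intro v
      obtain ⟨a, ha⟩ := horb v
      have h3 : MulAction.stabilizer D v = (MulAction.stabilizer R v).subgroupOf D := by
        ext x
        rw [MulAction.mem_stabilizer_iff, Subgroup.mem_subgroupOf, MulAction.mem_stabilizer_iff]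
        rfl
      have h4 : (MulAction.stabilizer D v).index ∣ 2 ^ a := by
        rw [h3, ← ha]
        exact relIndex_dvd_index_of_normal_right _ D
      obtain ⟨b, -, hb⟩ := (Nat.dvd_prime_pow Nat.prime_two).1 h4
      exact ⟨b, hb⟩)
  intro g hg v
  exact h2 ⟨g, hg⟩ v

theorem solvable_two {q : ℕ} [hq : Fact q.Prime] (hq2 : q ≠ 2) {V : Type*} [CommGroup V] [Finite V]
    (hV : IsPGroup q V) (X : Subgroup (MulAut V)) (hcop : (Nat.card X).Coprime q)
    (horb : ∀ v : V, ∃ a, (MulAction.stabilizer X v).index = 2 ^ a) : Group.IsSolvable X := by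
  letI act : DistribMulAction X (Additive V) :=
    { smul := fun g v => Additive.ofMul ((g : MulAut V) v.toMul)
      one_smul := fun v => rfl
      mul_smul := fun g h v => rfl
      smul_zero := fun g => by
        show Additive.ofMul ((g : MulAut V) 1) = 0
        rw [map_one]; rfl
      smul_add := fun g v w => by
        show Additive.ofMul ((g : MulAut V) (v.toMul * w.toMul)) = _
        rw [map_mul]; rfl }
  have hdef : ∀ (g : X) (v : Additive V), g • v = Additive.ofMul ((g : MulAut V) v.toMul) :=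
    fun _ _ => rfl
  obtain ⟨n, hn⟩ := IsPGroup.iff_card.1 hV
  obtain ⟨k, hk⟩ := exists_derived_trivial (R := X) (V := Additive V) hq2 (n := n) (by
    intro v
    have h1 : v.toMul ^ (q ^ n) = 1 := by rw [← hn]; exact pow_card_eq_one'
    have h2 := congrArg Additive.ofMul h1
    exact h2) hcop (by
    intro v
    obtain ⟨a, ha⟩ := horb v.toMul
    refine ⟨a, ?_⟩
    rw [← ha]
    congr 1)
  refine ⟨k, ?_⟩
  rw [eq_bot_iff]
  intro g hg
  rw [mem_bot]
  apply Subtype.ext
  ext v
  exact congrArg Additive.toMul (hk g hg (Additive.ofMul v))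

/-- no element of order two when all orbits are `p`-powers, `p` odd -/
theorem odd_card_of_orbits {q : ℕ} [hq : Fact q.Prime] {p : ℕ} (hp : p.Prime) (hp2 : p ≠ 2)
    {V : Type*} [CommGroup V] [Finite V]
    (hV : IsPGroup q V) (X : Subgroup (MulAut V)) (hcop : (Nat.card X).Coprime q)
    (horb : ∀ v : V, ∃ a, (MulAction.stabilizer X v).index = p ^ a) : Odd (Nat.card X) := by
  classical
  by_contra hcon
  rw [Nat.not_odd_iff_even, even_iff_two_dvd] at hcon
  have hq2 : q ≠ 2 := by
    rintro rfl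
    have := Nat.dvd_gcd hcon (dvd_refl 2)
    rw [hcop.gcd_eq_one] at this
    omega
  have h2 : Fact (Nat.Prime 2) := ⟨Nat.prime_two⟩
  obtain ⟨t, ht⟩ := exists_prime_orderOf_dvd_card' (G := X) 2 hcon
  have ht2 : t * t = 1 := by rw [← pow_two, ← ht, pow_orderOf_eq_one]
  have ht1 : t ≠ 1 := by
    rintro rfl
    rw [orderOf_one] at ht
    omega
  obtain ⟨v, hv⟩ : ∃ v : V, (t : MulAut V) v ≠ v := by
    by_contra h
    push Not at h
    exact ht1 (Subtype.ext (MulEquiv.ext h))
  have htt : ∀ w : V, (t : MulAut V) ((t : MulAut V) w) = w := by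
    intro w
    have := congrArg Subtype.val ht2
    exact DFunLike.congr_fun this w
  set y := (t : MulAut V) v * v⁻¹ with hy
  have hy1 : y ≠ 1 := by
    intro h
    exact hv (mul_inv_eq_one.1 h)
  have hty : t • y = y⁻¹ := by
    show (t : MulAut V) y = y⁻¹
    rw [hy, map_mul, htt, map_inv, mul_inv_rev, inv_inv]
  have hinv : ∀ w : V, w = w⁻¹ → w = 1 := by
    intro w hw
    obtain ⟨m, hm⟩ := hV w
    have h3 : w ^ 2 = 1 := by rw [pow_two]; nth_rewrite 2 [hw]; exact mul_inv_cancel w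
    have h4 : orderOf w ∣ 2 := orderOf_dvd_of_pow_eq_one h3
    have h5 : orderOf w ∣ q ^ m := orderOf_dvd_of_pow_eq_one hm
    have h6 := Nat.dvd_gcd h4 h5
    have h7 : Nat.Coprime 2 (q ^ m) :=
      Nat.Coprime.pow_right _ ((Nat.coprime_primes Nat.prime_two hq.out).2 (Ne.symm hq2))
    rw [h7.gcd_eq_one] at h6
    exact orderOf_eq_one_iff.1 (Nat.dvd_one.1 h6)
  obtain ⟨a, ha⟩ := horb y
  have := Fintype.ofFinite V
  let O : Finset V := Finset.univ.filter (fun w => w ∈ MulAction.orbit X y)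
  have hO : ∀ w, w ∈ O ↔ w ∈ MulAction.orbit X y := fun w => by simp [O]
  have hOcard : O.card = p ^ a := by
    rw [← ha, MulAction.index_stabilizer, ← Set.ncard_coe_finset]
    congr 1
    ext w
    exact hO w
  have hsum : ∑ w ∈ O, (1 : ZMod 2) = 0 := by
    refine Finset.sum_involution (fun w _ => w⁻¹) ?_ ?_ ?_ ?_
    · intro w _; exact CharTwo.add_self_eq_zero 1
    · intro w hw _ hww
      have h3 := hinv w hww.symm
      rw [hO] at hw
      obtain ⟨g, hg⟩ := hw
      apply hy1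
      have h4 : g • y = 1 := by rw [← h3]; exact hg
      have h5 : (g : MulAut V) y = 1 := h4
      rwa [map_eq_one_iff _ (g : MulAut V).injective] at h5
    · intro w hw
      rw [hO] at hw ⊢
      obtain ⟨g, hg⟩ := hw
      have hg' : g • y = w := hg
      refine ⟨g * t, ?_⟩
      show (g * t) • y = w⁻¹
      rw [mul_smul, hty, smul_inv', hg']
    · intro w _; exact inv_inv w
  rw [Finset.sum_const, hOcard, nsmul_eq_mul, mul_one, ZMod.natCast_eq_zero_iff] at hsum
  exact hp2 ((Nat.prime_dvd_prime_iff_eq Nat.prime_two hp).1 (Nat.prime_two.dvd_of_dvd_pow hsum)).symm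

/-- The coprime automorphism group with `p`-power orbits is solvable. -/
theorem solvable_autgroup {q : ℕ} [hq : Fact q.Prime] {p : ℕ} (hp : p.Prime) (hpq : p ≠ q)
    {V : Type u} [CommGroup V] [Finite V]
    (hodd : ∀ (X : Type u) [Group X] [Finite X], Odd (Nat.card X) → Group.IsSolvable X)
    (hV : IsPGroup q V) (X : Subgroup (MulAut V)) (hcop : (Nat.card X).Coprime q)
    (horb : ∀ v : V, ∃ a, (MulAction.stabilizer X v).index = p ^ a) : Group.IsSolvable X := by
  by_cases hp2 : p = 2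
  · subst hp2
    exact solvable_two (Ne.symm hpq) hV X hcop horb
  · exact hodd X (odd_card_of_orbits hp hp2 hV X hcop horb)

/-- `G/O_{q'}(G)` is solvable. -/
theorem solvable_quotient {G : Type u} [Group G] [Finite G] {q : ℕ} [hq : Fact q.Prime] {p : ℕ}
    [hp : Fact p.Prime] (hpq : p ≠ q)
    (hodd : ∀ (X : Type u) [Group X] [Finite X], Odd (Nat.card X) → Group.IsSolvable X)
    (hB : ∀ x : G, QEl q x → ∃ a, (Cx x).index = p ^ a) (Q : Sylow q G)
    (hN : (Cfsg.pPrimeCore q G).Normal) : Group.IsSolvable (G ⧸ Cfsg.pPrimeCore q G) := by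
  classical
  have hOn : (Cfsg.pCore p G).Normal := H49.pCore_normal' p
  set π := QuotientGroup.mk' (Cfsg.pCore p G) with hπ
  have hπ1 : ∀ g : G, π g = 1 ↔ g ∈ Cfsg.pCore p G := fun g => QuotientGroup.eq_one_iff g
  have hVQ := map_eq_pCore hB Q
  rw [← hπ] at hVQ
  set V := Cfsg.pCore q (G ⧸ Cfsg.pCore p G) with hV
  have hVn : V.Normal := H49.pCore_normal' q
  have hVq : IsPGroup q V := H49.pCore_isPGroup q
  have hQc := case_ne_comm hpq hB Q
  have hVc : ∀ v w : V, v * w = w * v := by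
    rintro ⟨v, hv⟩ ⟨w, hw⟩
    apply Subtype.ext
    rw [← hVQ] at hv hw
    obtain ⟨x, hx, rfl⟩ := hv
    obtain ⟨y, hy, rfl⟩ := hw
    show π x * π y = π y * π x
    rw [← map_mul, hQc x hx y hy, map_mul]
  letI : CommGroup V := { (inferInstance : Group V) with mul_comm := hVc }
  let f : G →* MulAut V := (MulAut.conjNormal (H := V)).comp π
  have hf : ∀ (g : G) (v : V), ((f g v : V) : G ⧸ Cfsg.pCore p G) = π g * v * (π g)⁻¹ :=
    fun g v => MulAut.conjNormal_apply (π g) v
  have hfker : ∀ g : G, g ∈ f.ker ↔ ∀ x ∈ (Q : Subgroup G), π g * π x = π x * π g := by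
    intro g
    rw [MonoidHom.mem_ker]
    constructor
    · intro h x hx
      have hxV : π x ∈ V := by rw [← hVQ]; exact mem_map_of_mem _ hx
      have h1 := hf g ⟨π x, hxV⟩
      rw [h] at h1
      have h2 : π x = π g * π x * (π g)⁻¹ := h1
      exact (eq_mul_inv_iff_mul_eq.1 h2).symm
    · intro h
      ext ⟨v, hv⟩
      rw [hf]
      rw [← hVQ] at hv
      obtain ⟨x, hx, rfl⟩ := hv
      show π g * π x * (π g)⁻¹ = π x
      rw [h x hx, mul_inv_cancel_right]
  have hQK : (Q : Subgroup G) ≤ f.ker := by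
    intro y hy
    rw [hfker]
    intro x hx
    rw [← map_mul, hQc y hy x hx, map_mul]
  have hXcop : (Nat.card f.range).Coprime q := by
    rw [← Subgroup.index_ker]
    refine Nat.Coprime.coprime_dvd_left (Subgroup.index_dvd_of_le hQK) ?_
    exact ((Nat.Prime.coprime_iff_not_dvd Fact.out).2 Q.not_dvd_index).symm
  have hXorb : ∀ v : V, ∃ a, (MulAction.stabilizer f.range v).index = p ^ a := by
    rintro ⟨v, hv⟩
    have hv' := hv
    rw [← hVQ] at hv'
    obtain ⟨x, hx, hxv⟩ := hv'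
    obtain ⟨a, ha⟩ := hB x (qel_of_mem Q.isPGroup' hx)
    have h1 : (MulAction.stabilizer f.range (⟨v, hv⟩ : V)).index ∣ p ^ a := by
      rw [← Subgroup.index_comap_of_surjective _ f.rangeRestrict_surjective, ← ha]
      apply Subgroup.index_dvd_of_le
      intro c hc
      rw [mem_Cx] at hc
      rw [mem_comap, MulAction.mem_stabilizer_iff]
      apply Subtype.ext
      show ((f c (⟨v, hv⟩ : V) : V) : G ⧸ Cfsg.pCore p G) = v
      rw [hf]
      show π c * v * (π c)⁻¹ = v
      rw [← hxv, ← map_mul, hc, map_mul, mul_inv_cancel_right]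
    obtain ⟨b, -, hb⟩ := (Nat.dvd_prime_pow hp.out).1 h1
    exact ⟨b, hb⟩
  have hX : Group.IsSolvable f.range := solvable_autgroup hp.out hpq hodd hVq f.range hXcop hXorb
  obtain ⟨n, hn⟩ := (Group.isSolvable_def _).1 hX
  have hDn : derivedSeries G n ≤ f.ker := by
    intro g hg
    have h1 : f.rangeRestrict g ∈ derivedSeries f.range n := by
      rw [← map_derivedSeries_eq f.rangeRestrict_surjective]
      exact mem_map_of_mem _ hg
    rw [hn, mem_bot] at h1
    exact congrArg Subtype.val h1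
  -- normal `q`-complement of the kernel
  let Q1 : Sylow q f.ker := Q.subtype hQK
  have hQ1 : ∀ x : f.ker, x ∈ (Q1 : Subgroup f.ker) ↔ (x : G) ∈ (Q : Subgroup G) := fun x => Iff.rfl
  have hP : normalizer ((Q1 : Subgroup f.ker) : Set f.ker) ≤ centralizer ((Q1 : Subgroup f.ker) : Set f.ker) := by
    intro g hg
    rw [mem_normalizer_iff] at hg
    rw [mem_centralizer_iff]
    intro x hx
    have hx' : (x : G) ∈ (Q : Subgroup G) := hx
    have h1 : g * x * g⁻¹ ∈ (Q1 : Subgroup f.ker) := (hg x).1 hx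
    have h1' : (g : G) * x * (g : G)⁻¹ ∈ (Q : Subgroup G) := h1
    have h2 := (hfker (g : G)).1 g.2 (x : G) hx'
    have h3' : (g : G) * x * (g : G)⁻¹ * (x : G)⁻¹ ∈ (Q : Subgroup G) := mul_mem h1' (inv_mem hx')
    have h3 : (g : G) * x * (g : G)⁻¹ * (x : G)⁻¹ ∈ Cfsg.pCore p G ⊓ (Q : Subgroup G) := by
      refine ⟨?_, h3'⟩
      have : π ((g : G) * x * (g : G)⁻¹ * (x : G)⁻¹) = 1 := by
        simp only [map_mul, map_inv]
        rw [h2]; group
      exact (hπ1 _).1 this
    rw [disjoint_pCore hpq Q, mem_bot] at h3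
    apply Subtype.ext
    show (x : G) * g = g * x
    have h4 : (g : G) * x * (g : G)⁻¹ = x := mul_inv_eq_one.1 h3
    exact (mul_inv_eq_iff_eq_mul.1 h4).symm
  let τ := MonoidHom.transferSylow Q1 hP
  have hτ : ¬ q ∣ Nat.card τ.ker := MonoidHom.not_dvd_card_ker_transferSylow Q1 hP
  let M' : Subgroup G := τ.ker.map f.ker.subtype
  have hM'card : (Nat.card M').Coprime q := by
    have : Nat.card M' = Nat.card τ.ker :=
      (Nat.card_congr (τ.ker.equivMapOfInjective _ f.ker.subtype_injective).toEquiv).symm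
    rw [this]
    exact ((Nat.Prime.coprime_iff_not_dvd Fact.out).2 hτ).symm
  have hM'n : M'.Normal := by
    constructor
    rintro _ ⟨m, hm, rfl⟩ g
    have h1 : g * (m : G) * g⁻¹ ∈ f.ker := (inferInstance : f.ker.Normal).conj_mem _ m.2 g
    refine ⟨⟨g * m * g⁻¹, h1⟩, ?_, rfl⟩
    show τ ⟨g * m * g⁻¹, h1⟩ = 1
    have h2 : orderOf (⟨g * m * g⁻¹, h1⟩ : f.ker) = orderOf m := by
      rw [Subgroup.orderOf_mk, ← Subgroup.orderOf_coe m]
      exact (MulAut.conj g).orderOf_eq (m : G)
    have h3 : (orderOf m) ∣ Nat.card τ.ker := Subgroup.orderOf_dvd_natCard _ hm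
    have h4 : orderOf (τ ⟨g * m * g⁻¹, h1⟩) ∣ Nat.card τ.ker :=
      ((orderOf_map_dvd τ _).trans (by rw [h2])).trans h3
    obtain ⟨k, hk⟩ := (IsPGroup.iff_orderOf.1 Q1.isPGroup') (τ ⟨g * m * g⁻¹, h1⟩)
    rw [hk] at h4
    have hk0 : k = 0 := by
      by_contra hk0
      exact hτ ((dvd_pow_self q hk0).trans h4)
    rw [hk0, pow_zero] at hk
    exact orderOf_eq_one_iff.1 hk
  have hM'le : M' ≤ Cfsg.pPrimeCore q G := le_sSup ⟨hM'n, hM'card⟩
  have hder : derivedSeries G (n + 1) ≤ Cfsg.pPrimeCore q G := by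
    rw [derivedSeries_succ, Subgroup.commutator_le]
    intro x hx y hy
    apply hM'le
    have hx' := hDn hx
    have hy' := hDn hy
    refine ⟨⁅(⟨x, hx'⟩ : f.ker), ⟨y, hy'⟩⁆, ?_, rfl⟩
    show τ ⁅(⟨x, hx'⟩ : f.ker), ⟨y, hy'⟩⁆ = 1
    rw [map_commutatorElement, commutatorElement_eq_one_iff_mul_comm]
    apply Subtype.ext
    apply Subtype.ext
    exact hQc _ (τ ⟨x, hx'⟩).2 _ (τ ⟨y, hy'⟩).2
  rw [Group.isSolvable_def]
  refine ⟨n + 1, ?_⟩
  rw [← map_derivedSeries_eq (QuotientGroup.mk'_surjective (Cfsg.pPrimeCore q G)), eq_bot_iff]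
  rintro _ ⟨x, hx, rfl⟩
  rw [mem_bot]
  exact (QuotientGroup.eq_one_iff x).2 (hder hx)

/-- All statements of the theorem, modulo the odd order theorem. -/
theorem main {G : Type u} [Group G] [Finite G] (q : ℕ) [Fact q.Prime]
    (hodd : ∀ (X : Type u) [Group X] [Finite X], Odd (Nat.card X) → Group.IsSolvable X)
    (hBaer : ∀ x : G, (∃ k : ℕ, orderOf x = q ^ k) → ∃ (r : ℕ) (a : ℕ), r.Prime ∧
      (Subgroup.centralizer ({x} : Set G)).index = r ^ a) (Q : Sylow q G) :
    (∃ K L : Subgroup G, K.Normal ∧ L.Normal ∧ K ≤ L ∧ (Nat.card K).Coprime q ∧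
      (∃ m : ℕ, K.relIndex L = q ^ m) ∧ L.index.Coprime q) ∧
    ∃ p : ℕ, p.Prime ∧ (∀ x : G, (∃ k : ℕ, orderOf x = q ^ k) →
        ∃ a : ℕ, (Subgroup.centralizer ({x} : Set G)).index = p ^ a) ∧
      (p = q → (Q : Subgroup G).Normal ∧ ∃ N : Subgroup G, N.Normal ∧ N.IsComplement' (Q : Subgroup G)) ∧
      (p ≠ q → IsMulCommutative (Q : Subgroup G) ∧ (Cfsg.pCore p G ⊔ (Q : Subgroup G)).Normal ∧
        ∀ _h : (Cfsg.pPrimeCore q G).Normal, Group.IsSolvable (G ⧸ Cfsg.pPrimeCore q G)) := by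
  obtain ⟨p, hp, hB⟩ := exists_prime hBaer
  have hpF : Fact p.Prime := ⟨hp⟩
  constructor
  · by_cases hpq : p = q
    · subst hpq
      exact part_A_eq Q (case_eq hB Q).1
    · exact part_A_ne hpq hB Q
  · refine ⟨p, hp, hB, ?_, ?_⟩
    · rintro rfl
      exact case_eq hB Q
    · intro hpq
      have hc := case_ne_comm hpq hB Q
      exact ⟨⟨⟨fun x y => Subtype.ext (hc x x.2 y y.2)⟩⟩, case_ne_normal hB Q,
        fun h => solvable_quotient hpq hodd hB Q h⟩

end Cfsg.Agent.QBaer
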