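import Mathlib
import Cfsg.Agent.MaxClass.CyclicMax
import Cfsg.Agent.H9.CyclicNormal
import Cfsg.Agent.H23.PGroupNormal
import Cfsg.Agent.H69.Basic
import Cfsg.Agent.H80.Index2

/-!
# Perfect linear groups with all orbits of 2-power size (helper15)

Let `W` be a finite vector space over `F_q`, `q` odd, and `H` a perfect group of linear maps of
order prime to `q`, irreducible on `W`, with all orbits of `2`-power size.  Then `H = 1`.
-/

set_option autoImplicit false
set_option linter.style.haveILetI false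

namespace Cfsg.Agent.QBaer

open Subgroup
open scoped Pointwise

section Lin

variable {q : ℕ} [Fact q.Prime] {W : Type*} [AddCommGroup W] [Module (ZMod q) W]

theorem dich {U A B : Submodule (ZMod q) W} (f : W ≃ₗ[ZMod q] W)
    (h : ∀ u ∈ U, f u ∈ A ∨ f u ∈ B) : (∀ u ∈ U, f u ∈ A) ∨ (∀ u ∈ U, f u ∈ B) := by
  by_contra hcon
  push Not at hcon
  obtain ⟨⟨u1, hu1, h1⟩, u2, hu2, h2⟩ := hcon
  have h1' : f u1 ∈ B := (h u1 hu1).resolve_left h1
  have h2' : f u2 ∈ A := (h u2 hu2).resolve_right h2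
  rcases h (u1 + u2) (U.add_mem hu1 hu2) with h3 | h3
  · apply h1
    have : f u1 = f (u1 + u2) - f u2 := by rw [map_add]; abel
    rw [this]; exact A.sub_mem h3 h2'
  · apply h2
    have : f u2 = f (u1 + u2) - f u1 := by rw [map_add]; abel
    rw [this]; exact B.sub_mem h3 h1'

/-- The hypotheses on the perfect group `H` and its Sylow 2-subgroup `P`. -/
structure Irr2 (q : ℕ) [Fact q.Prime] (W : Type*) [AddCommGroup W] [Module (ZMod q) W]
    (H P : Subgroup (W ≃ₗ[ZMod q] W)) : Prop where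
  odd : q ≠ 2
  le : P ≤ H
  two : IsPGroup 2 P
  orb : ∀ h ∈ H, ∀ w : W, ∃ t ∈ P, h w = t w
  perf : commutator H = ⊤
  irr : ∀ U : Submodule (ZMod q) W, (∀ t ∈ P, ∀ u ∈ U, t u ∈ U) → U = ⊥ ∨ U = ⊤

/-- `h` stabilizes both `U` and `U'` -/
def Stab2 (U U' : Submodule (ZMod q) W) (h : W ≃ₗ[ZMod q] W) : Prop :=
  (∀ u ∈ U, h u ∈ U) ∧ (∀ u ∈ U', h u ∈ U')

/-- `h` swaps `U` and `U'` -/
def Swap2 (U U' : Submodule (ZMod q) W) (h : W ≃ₗ[ZMod q] W) : Prop :=
  (∀ u ∈ U, h u ∈ U') ∧ (∀ u ∈ U', h u ∈ U)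

variable {H P : Subgroup (W ≃ₗ[ZMod q] W)}

theorem Irr2.no_swap (hI : Irr2 q W H P) {U U' : Submodule (ZMod q) W} (h1 : ¬ U ≤ U')
    (h2 : ¬ U' ≤ U) (hsw : ∀ t ∈ P, Stab2 U U' t ∨ Swap2 U U' t) : False := by
  classical
  have hun : ∀ h ∈ H, ∀ u, (u ∈ U ∨ u ∈ U') → (h u ∈ U ∨ h u ∈ U') := by
    intro h hh u hu
    obtain ⟨t, ht, htu⟩ := hI.orb h hh u
    rw [htu]
    rcases hsw t ht with h3 | h3 <;> rcases hu with h4 | h4
    · exact Or.inl (h3.1 u h4)
    · exact Or.inr (h3.2 u h4)
    · exact Or.inr (h3.1 u h4)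
    · exact Or.inl (h3.2 u h4)
  have key : ∀ h ∈ H, Stab2 U U' h ∨ Swap2 U U' h := by
    intro h hh
    have hinv : ∀ x, h (h⁻¹ x) = x := fun x => h.apply_symm_apply x
    rcases dich (U := U) (A := U) (B := U') h (fun u hu => hun h hh u (Or.inl hu)) with h3 | h3 <;>
    rcases dich (U := U') (A := U) (B := U') h (fun u hu => hun h hh u (Or.inr hu)) with h4 | h4
    · exfalso
      apply h2
      intro x hx
      have := hun _ (inv_mem hh) x (Or.inr hx)
      rcases this with h5 | h5
      · have h6 := h3 _ h5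
        rwa [hinv] at h6
      · have h6 := h4 _ h5
        rwa [hinv] at h6
    · exact Or.inl ⟨h3, h4⟩
    · exact Or.inr ⟨h3, h4⟩
    · exfalso
      apply h1
      intro x hx
      have := hun _ (inv_mem hh) x (Or.inl hx)
      rcases this with h5 | h5
      · have h6 := h3 _ h5
        rwa [hinv] at h6
      · have h6 := h4 _ h5
        rwa [hinv] at h6
  have hexcl : ∀ h : W ≃ₗ[ZMod q] W, h ∈ H → Swap2 U U' h → ¬ Stab2 U U' h := by
    intro h hh h3 h4
    apply h1
    intro x hx
    -- both images in `U'`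
    have hinv : h (h⁻¹ x) = x := h.apply_symm_apply x
    rcases hun _ (inv_mem hh) x (Or.inl hx) with h5 | h5
    · have h6 := h3.1 _ h5
      rwa [hinv] at h6
    · have h6 := h4.2 _ h5
      rwa [hinv] at h6
  have hAA : ∀ g h : W ≃ₗ[ZMod q] W, Stab2 U U' g → Stab2 U U' h → Stab2 U U' (g * h) :=
    fun g h hg hh => ⟨fun u hu => hg.1 _ (hh.1 u hu), fun u hu => hg.2 _ (hh.2 u hu)⟩
  have hAB : ∀ g h : W ≃ₗ[ZMod q] W, Stab2 U U' g → Swap2 U U' h → Swap2 U U' (g * h) :=
    fun g h hg hh => ⟨fun u hu => hg.2 _ (hh.1 u hu), fun u hu => hg.1 _ (hh.2 u hu)⟩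
  have hBA : ∀ g h : W ≃ₗ[ZMod q] W, Swap2 U U' g → Stab2 U U' h → Swap2 U U' (g * h) :=
    fun g h hg hh => ⟨fun u hu => hg.1 _ (hh.1 u hu), fun u hu => hg.2 _ (hh.2 u hu)⟩
  have hBB : ∀ g h : W ≃ₗ[ZMod q] W, Swap2 U U' g → Swap2 U U' h → Stab2 U U' (g * h) :=
    fun g h hg hh => ⟨fun u hu => hg.2 _ (hh.1 u hu), fun u hu => hg.1 _ (hh.2 u hu)⟩
  let f : H →* ℤˣ :=
    { toFun := fun h => if Stab2 U U' (h : W ≃ₗ[ZMod q] W) then 1 else -1
      map_one' := by
        rw [if_pos]
        exact ⟨fun u hu => hu, fun u hu => hu⟩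
      map_mul' := by
        intro g h
        rw [Subgroup.coe_mul]
        rcases key g g.2 with hg | hg <;> rcases key h h.2 with hh | hh
        · rw [if_pos hg, if_pos hh, if_pos (hAA _ _ hg hh)]; rfl
        · have h3 := hexcl _ (g * h).2 (hAB _ _ hg hh)
          rw [if_pos hg, if_neg (hexcl _ h.2 hh)]
          rw [if_neg (by exact h3)]; rfl
        · have h3 := hexcl _ (g * h).2 (hBA _ _ hg hh)
          rw [if_pos hh, if_neg (hexcl _ g.2 hg)]
          rw [if_neg (by exact h3)]; rfl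
        · rw [if_neg (hexcl _ g.2 hg), if_neg (hexcl _ h.2 hh), if_pos (hBB _ _ hg hh)]; rfl }
  have hf : commutator H ≤ f.ker := Abelianization.commutator_subset_ker f
  rw [hI.perf] at hf
  have hall : ∀ h ∈ H, Stab2 U U' h := by
    intro h hh
    have h3 : f ⟨h, hh⟩ = 1 := hf (mem_top _)
    by_contra h4
    have h5 : f ⟨h, hh⟩ = -1 := if_neg h4
    rw [h5] at h3
    exact absurd h3 (by decide)
  rcases hI.irr U (fun t ht u hu => (hall t (hI.le ht)).1 u hu) with h3 | h3
  · exact h1 (by rw [h3]; exact bot_le)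
  · exact h2 (by rw [h3]; exact le_top)

theorem Irr2.two_smul_eq_zero (hI : Irr2 q W H P) {w : W} (h : w = -w) : w = 0 := by
  have h1 : (2 : ZMod q) • w = 0 := by
    rw [two_smul]; nth_rewrite 2 [h]; exact add_neg_cancel w
  have h2 : (2 : ZMod q) ≠ 0 := by
    intro h3
    have : (q : ℕ) ∣ 2 := by
      rw [← ZMod.natCast_eq_zero_iff]; exact_mod_cast h3
    exact hI.odd ((Nat.prime_dvd_prime_iff_eq Fact.out Nat.prime_two).1 this)
  exact (smul_eq_zero.1 h1).resolve_left h2

/-- no involution other than `-1` has its `P`-conjugates in `{a, -a}`. -/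
theorem Irr2.no_inv (hI : Irr2 q W H P) {a : W ≃ₗ[ZMod q] W} (ha2 : ∀ w, a (a w) = w)
    (ha1 : ∃ w, a w ≠ w) (ha3 : ∃ w, a w ≠ -w)
    (hc : ∀ t ∈ P, (∀ w, t (a w) = a (t w)) ∨ (∀ w, t (a w) = -a (t w))) : False := by
  let U : Submodule (ZMod q) W := LinearMap.ker ((a : W →ₗ[ZMod q] W) - 1)
  let U' : Submodule (ZMod q) W := LinearMap.ker ((a : W →ₗ[ZMod q] W) + 1)
  have hU : ∀ w, w ∈ U ↔ a w = w := by
    intro w
    rw [LinearMap.mem_ker]
    show a w - w = 0 ↔ _
    rw [sub_eq_zero]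
  have hU' : ∀ w, w ∈ U' ↔ a w = -w := by
    intro w
    rw [LinearMap.mem_ker]
    show a w + w = 0 ↔ _
    rw [add_eq_zero_iff_eq_neg]
  apply hI.no_swap (U := U) (U' := U')
  · intro hle
    obtain ⟨w, hw⟩ := ha3
    apply hw
    have h1 : w + a w ∈ U := by rw [hU, map_add, ha2, add_comm]
    have h2 := hle h1
    rw [hU'] at h2
    rw [hU] at h1
    have h3 := hI.two_smul_eq_zero (h1.symm.trans h2)
    rw [add_comm] at h3
    exact eq_neg_of_add_eq_zero_left h3
  · intro hle
    obtain ⟨w, hw⟩ := ha1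
    apply hw
    have h1 : w - a w ∈ U' := by rw [hU', map_sub, ha2]; abel
    have h2 := hle h1
    rw [hU] at h2
    rw [hU'] at h1
    have h3 := hI.two_smul_eq_zero (h2.symm.trans h1)
    exact (sub_eq_zero.1 h3).symm
  · intro t ht
    rcases hc t ht with h | h
    · left
      constructor
      · intro u hu
        rw [hU] at hu ⊢
        rw [← h u, hu]
      · intro u hu
        rw [hU'] at hu ⊢
        rw [← h u, hu, map_neg]
    · right
      constructor
      · intro u hu
        rw [hU] at hu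
        rw [hU']
        have := h u
        rw [hu] at this
        exact neg_eq_iff_eq_neg.1 this.symm
      · intro u hu
        rw [hU'] at hu
        rw [hU]
        have := h u
        rw [hu, map_neg] at this
        exact (neg_injective this).symm

/-- central involutions of `P` are `-1` -/
theorem Irr2.central_inv (hI : Irr2 q W H P) {z : W ≃ₗ[ZMod q] W} (hz2 : ∀ w, z (z w) = w)
    (hz1 : ∃ w, z w ≠ w) (hc : ∀ t ∈ P, ∀ w, t (z w) = z (t w)) : ∀ w, z w = -w := by
  by_contra hcon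
  push Not at hcon
  exact hI.no_inv hz2 hz1 hcon (fun t ht => Or.inl (hc t ht))

/-- the element `-1` of `P`, a central involution -/
theorem Irr2.exists_neg (hI : Irr2 q W H P) (hP : P ≠ ⊥) [Finite W] :
    ∃ z : P, z ^ 2 = 1 ∧ z ≠ 1 ∧ (∀ t : P, t * z = z * t) ∧
      ∀ w, (z : W ≃ₗ[ZMod q] W) w = -w := by
  have hfin : Finite (W ≃ₗ[ZMod q] W) := Finite.of_injective (fun f => (f : W → W)) DFunLike.coe_injective
  have h2 : Fact (Nat.Prime 2) := ⟨Nat.prime_two⟩
  have hnt : Nontrivial P := (Subgroup.nontrivial_iff_ne_bot P).2 hP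
  have hc : Nontrivial (center P) := hI.two.center_nontrivial
  obtain ⟨k, hk⟩ := IsPGroup.iff_card.1 (hI.two.to_subgroup (center P))
  have hk0 : k ≠ 0 := by
    rintro rfl
    rw [pow_zero] at hk
    exact absurd hk (Finite.one_lt_card_iff_nontrivial.2 hc).ne'
  obtain ⟨z, hz⟩ := exists_prime_orderOf_dvd_card' (G := center P) 2 (by rw [hk]; exact dvd_pow_self 2 hk0)
  have hz' : orderOf (z : P) = 2 := by rw [Subgroup.orderOf_coe, hz]
  have hz2 : (z : P) ^ 2 = 1 := by rw [← hz', pow_orderOf_eq_one]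
  have hz1 : (z : P) ≠ 1 := by
    intro h
    rw [h, orderOf_one] at hz'
    exact absurd hz' (by norm_num)
  have hzc : ∀ t : P, t * (z : P) = z * t := mem_center_iff.1 z.2
  refine ⟨z, hz2, hz1, hzc, ?_⟩
  apply hI.central_inv
  · intro w
    have h3 : (((z : P) ^ 2 : P) : W ≃ₗ[ZMod q] W) w = w := by rw [hz2]; rfl
    rwa [pow_two] at h3
  · by_contra hcon
    push Not at hcon
    apply hz1
    apply Subtype.ext
    ext w
    exact hcon w
  · intro t ht w
    have h3 := congrArg Subtype.val (hzc ⟨t, ht⟩)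
    exact DFunLike.congr_fun h3 w

/-- every abelian normal subgroup of `P` is cyclic -/
theorem Irr2.isCyclic_of_normal (hI : Irr2 q W H P) [Finite W] (N : Subgroup P) (hN : N.Normal)
    (hNc : IsMulCommutative N) : IsCyclic N := by
  have hfin : Finite (W ≃ₗ[ZMod q] W) := Finite.of_injective (fun f => (f : W → W)) DFunLike.coe_injective
  have h2 : Fact (Nat.Prime 2) := ⟨Nat.prime_two⟩
  by_cases hP : P = ⊥
  · have : Subsingleton P := by rw [hP]; infer_instance
    infer_instance
  obtain ⟨z, hz2, hz1, hzc, hzn⟩ := hI.exists_neg hP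
  have hNcc : ∀ a ∈ N, ∀ b ∈ N, a * b = b * a := fun a ha b hb =>
    congrArg Subtype.val (hNc.is_comm.comm (⟨a, ha⟩ : N) ⟨b, hb⟩)
  -- elements of order two of `N` are `z`
  have key : ∀ e ∈ N, e ^ 2 = 1 → e ≠ 1 → e = z := by
    by_contra hcon
    push Not at hcon
    obtain ⟨e0, he0, he02, he01, he0z⟩ := hcon
    let B : Subgroup P :=
      { carrier := {x | x ∈ N ∧ x ^ 2 = 1}
        one_mem' := ⟨one_mem _, one_pow _⟩
        mul_mem' := by
          rintro a b ⟨ha, ha2⟩ ⟨hb, hb2⟩
          exact ⟨mul_mem ha hb, by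
            rw [(show Commute a b from hNcc a ha b hb).mul_pow, ha2, hb2, one_mul]⟩
        inv_mem' := by
          rintro a ⟨ha, ha2⟩
          exact ⟨inv_mem ha, by rw [inv_pow, ha2, inv_one]⟩ }
    have hBn : B.Normal := by
      constructor
      rintro a ⟨ha, ha2⟩ g
      exact ⟨hN.conj_mem a ha g, by rw [conj_pow, ha2]; simp⟩
    let Z : Subgroup P := zpowers z
    have hZn : Z.Normal := by
      constructor
      intro a ha g
      obtain ⟨i, rfl⟩ := ha
      have : g * (z ^ i) = z ^ i * g := ((show Commute g z from hzc g).zpow_right i).eq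
      show g * z ^ i * g⁻¹ ∈ Z
      rw [this, mul_inv_cancel_right]
      exact zpow_mem (mem_zpowers z) i
    have hZmem : ∀ x : P, x ∈ Z ↔ x = 1 ∨ x = z := by
      intro x
      constructor
      · rintro ⟨i, rfl⟩
        rcases Int.even_or_odd' i with ⟨j, rfl | rfl⟩
        · left
          show z ^ (2 * j) = 1
          rw [zpow_mul]
          have : z ^ (2 : ℤ) = 1 := by exact_mod_cast hz2
          rw [this, one_zpow]
        · right
          show z ^ (2 * j + 1) = z
          rw [zpow_add, zpow_mul]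
          have : z ^ (2 : ℤ) = 1 := by exact_mod_cast hz2
          rw [this, one_zpow, one_mul, zpow_one]
      · rintro (rfl | rfl)
        · exact one_mem _
        · exact mem_zpowers x
    let π := QuotientGroup.mk' Z
    have hπ : ∀ x, π x = 1 ↔ x ∈ Z := fun x => QuotientGroup.eq_one_iff x
    have hBne : B.map π ≠ ⊥ := by
      intro h
      have h3 : π e0 ∈ B.map π := mem_map_of_mem _ ⟨he0, he02⟩
      rw [h, mem_bot, hπ, hZmem] at h3
      rcases h3 with h3 | h3
      · exact he01 h3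
      · exact he0z h3
    obtain ⟨_, ⟨e, he, rfl⟩, he1, hec⟩ := H69.exists_fixed_of_isPGroup (P := (⊤ : Subgroup P).map π)
      (N := B.map π) ((hI.two.to_subgroup ⊤).map _) ((hI.two.to_subgroup B).map _) hBne (by
        rintro _ ⟨x, hx, rfl⟩ _ ⟨n, hn, rfl⟩
        exact ⟨x * n * x⁻¹, hBn.conj_mem _ hn x, by simp⟩)
    have he1' : ¬ (e = 1 ∨ e = z) := by rw [← hZmem, ← hπ]; exact he1
    push Not at he1'
    have he2 : e ^ 2 = 1 := he.2
    have hconj : ∀ t : P, t * e = e * t ∨ t * e = z * (e * t) := by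
      intro t
      have h3 := hec (π t) ⟨t, mem_top _, rfl⟩
      rw [← map_mul, ← map_mul] at h3
      have h4 : π ((t * e) * (e * t)⁻¹) = 1 := by rw [map_mul, h3, ← map_mul, mul_inv_cancel, map_one]
      rw [hπ, hZmem] at h4
      rcases h4 with h4 | h4
      · left; exact mul_inv_eq_one.1 h4
      · right; exact mul_inv_eq_iff_eq_mul.1 h4
    have hcoe : ∀ (s t : P), s = t → ∀ w, (s : W ≃ₗ[ZMod q] W) w = (t : W ≃ₗ[ZMod q] W) w := by
      rintro s t rfl w; rfl
    refine hI.no_inv (a := (e : W ≃ₗ[ZMod q] W)) ?_ ?_ ?_ ?_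
    · intro w
      have := hcoe _ _ he2 w
      rw [pow_two] at this
      exact this
    · by_contra hcon
      push Not at hcon
      exact he1'.1 (Subtype.ext (LinearEquiv.ext hcon))
    · by_contra hcon
      push Not at hcon
      apply he1'.2
      apply Subtype.ext
      ext w
      rw [hcon w, hzn w]
    · intro t ht
      rcases hconj ⟨t, ht⟩ with h3 | h3
      · left
        intro w
        exact hcoe _ _ h3 w
      · right
        intro w
        have := hcoe _ _ h3 w
        have h4 : ((z * (e * ⟨t, ht⟩) : P) : W ≃ₗ[ZMod q] W) w = -((e : W ≃ₗ[ZMod q] W) (t w)) :=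
          hzn _
        rw [h4] at this
        exact this
  letI : CommGroup N := { (inferInstance : Group N) with mul_comm := hNc.is_comm.comm }
  apply Cfsg.Agent.H23.isCyclic_of_card_pow_p_le (A := N) (hI.two.to_subgroup N)
  have hsub : ∀ x : (powMonoidHom 2 : N →* N).ker, ((x : N) : P) = 1 ∨ ((x : N) : P) = z := by
    rintro ⟨⟨x, hx⟩, hx2⟩
    by_cases h : x = 1
    · exact Or.inl h
    · right
      apply key x hx _ h
      have : (⟨x, hx⟩ : N) ^ 2 = 1 := hx2
      exact congrArg Subtype.val this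
  classical
  let f : (powMonoidHom 2 : N →* N).ker → Bool := fun x => decide (((x : N) : P) = 1)
  have hf : Function.Injective f := by
    intro x y hxy
    have hxy' : (((x : N) : P) = 1) ↔ (((y : N) : P) = 1) := by
      simpa [f] using hxy
    apply Subtype.ext
    apply Subtype.ext
    rcases hsub x with h | h <;> rcases hsub y with h' | h'
    · rw [h, h']
    · rw [h, hxy'.1 h]
    · rw [h', hxy'.2 h']
    · rw [h, h']
  calc Nat.card (powMonoidHom 2 : N →* N).ker ≤ Nat.card Bool := Nat.card_le_card_of_injective f hf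
    _ = 2 := by simp

end Lin

section Field

open Polynomial

/-- Irreducible cyclic linear groups over a prime field. -/
theorem field_lemma {q : ℕ} [hq : Fact q.Prime] {W : Type*} [AddCommGroup W] [Module (ZMod q) W]
    [Finite W] [Nontrivial W] (aL : Module.End (ZMod q) W)
    (hirr : ∀ U : Submodule (ZMod q) W, (∀ u ∈ U, aL u ∈ U) → U = ⊥ ∨ U = ⊤) (k : ℕ)
    (hk : ∀ p : (ZMod q)[X], aeval aL p = 0 → aeval (aL ^ k) p = 0) :
    (∃ j : ℕ, aL ^ k = aL ^ (q ^ j)) ∧ (aL ^ (q ^ 2) = aL → Module.finrank (ZMod q) W ≤ 2) := by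
  classical
  have hcom : ∀ p : (ZMod q)[X], aL * aeval aL p = aeval aL p * aL := by
    intro p
    have h1 : aeval aL (X * p) = aeval aL (p * X) := by rw [mul_comm]
    rw [map_mul, map_mul, aeval_X] at h1
    exact h1
  have hz : ∀ p r : (ZMod q)[X], aeval aL (p * r) = 0 → aeval aL p = 0 ∨ aeval aL r = 0 := by
    intro p r h
    rcases hirr (LinearMap.ker (aeval aL p)) (by
      intro u hu
      rw [LinearMap.mem_ker] at hu ⊢
      have h1 : (aeval aL p * aL) u = (aL * aeval aL p) u := by rw [hcom]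
      have h2 : aeval aL p (aL u) = aL (aeval aL p u) := h1
      rw [h2, hu, map_zero]) with h3 | h3
    · right
      ext w
      have h4 : (aeval aL p * aeval aL r) w = 0 := by rw [← map_mul, h]; rfl
      have h5 : aeval aL r w ∈ LinearMap.ker (aeval aL p) := h4
      rw [h3] at h5
      exact h5
    · left
      ext w
      have : w ∈ LinearMap.ker (aeval aL p) := by rw [h3]; exact Submodule.mem_top
      exact this
  have hint : IsIntegral (ZMod q) aL := Algebra.IsIntegral.isIntegral aL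
  set π := minpoly (ZMod q) aL with hπ
  have hπ0 : π ≠ 0 := minpoly.ne_zero hint
  have hπa : aeval aL π = 0 := minpoly.aeval _ _
  have hirrπ : Irreducible π := by
    refine ⟨minpoly.not_isUnit _ _, ?_⟩
    intro p r hpr
    have hp0 : p ≠ 0 := by rintro rfl; rw [zero_mul] at hpr; exact hπ0 hpr
    have hr0 : r ≠ 0 := by rintro rfl; rw [mul_zero] at hpr; exact hπ0 hpr
    have hdeg : natDegree π = natDegree p + natDegree r := by rw [hpr, natDegree_mul hp0 hr0]
    rcases hz p r (by rw [← hpr]; exact hπa) with h | h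
    · right
      have h1 : π ∣ p := minpoly.dvd _ _ h
      have h2 := natDegree_le_of_dvd h1 hp0
      have h3 : natDegree r = 0 := by omega
      exact isUnit_iff_degree_eq_zero.2 (by rw [degree_eq_natDegree hr0, h3]; rfl)
    · left
      have h1 : π ∣ r := minpoly.dvd _ _ h
      have h2 := natDegree_le_of_dvd h1 hr0
      have h3 : natDegree p = 0 := by omega
      exact isUnit_iff_degree_eq_zero.2 (by rw [degree_eq_natDegree hp0, h3]; rfl)
  have : Fact (Irreducible π) := ⟨hirrπ⟩
  let K := AdjoinRoot π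
  have hfd : Module.Finite (ZMod q) K := (AdjoinRoot.powerBasis hπ0).finite
  have : Finite K := Module.finite_of_finite (ZMod q)
  let r : K := AdjoinRoot.root π
  have hr : ∀ p : (ZMod q)[X], aeval r p = 0 ↔ aeval aL p = 0 := by
    intro p
    rw [AdjoinRoot.aeval_eq, AdjoinRoot.mk_eq_zero]
    constructor
    · rintro ⟨c, rfl⟩
      rw [map_mul, hπa, zero_mul]
    · intro h
      exact minpoly.dvd _ _ h
  constructor
  · -- `r ^ k` is a root of `π`
    have h1 : aeval (r ^ k) π = 0 := by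
      have h2 : aeval r (π.comp (X ^ k)) = 0 := by
        rw [hr, aeval_comp, map_pow, aeval_X]
        exact hk π hπa
      rwa [aeval_comp, map_pow, aeval_X] at h2
    have h3 : minpoly (ZMod q) r = π * C (π.leadingCoeff⁻¹) := AdjoinRoot.minpoly_root hπ0
    have h4 : aeval (r ^ k) (minpoly (ZMod q) r) = 0 := by rw [h3, map_mul, h1, zero_mul]
    obtain ⟨σ, hσ⟩ := minpoly.exists_algEquiv_of_root' (K := ZMod q) (L := K) (y := r) (x := r ^ k)
      (Algebra.IsAlgebraic.isAlgebraic r) h4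
    obtain ⟨n, hn⟩ := (FiniteField.bijective_frobeniusAlgEquivOfAlgebraic_pow (ZMod q) K).2 σ
    refine ⟨n.1, ?_⟩
    have h5 : σ r = r ^ (q ^ n.1) := by
      rw [← hn]
      simp [FiniteField.coe_frobeniusAlgEquivOfAlgebraic_iterate]
    have h6 : aeval r (X ^ k - X ^ (q ^ n.1) : (ZMod q)[X]) = 0 := by
      rw [map_sub, map_pow, map_pow, aeval_X, ← hσ, h5, sub_self]
    rw [hr, map_sub, map_pow, map_pow, aeval_X, sub_eq_zero] at h6
    exact h6
  · intro ha
    have hrr : r ^ (q ^ 2) = r := by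
      have h6 : aeval aL (X ^ (q ^ 2) - X : (ZMod q)[X]) = 0 := by
        rw [map_sub, map_pow, aeval_X, ha, sub_self]
      rw [← hr, map_sub, map_pow, aeval_X, sub_eq_zero] at h6
      exact h6
    have hfr : (FiniteField.frobeniusAlgHom (ZMod q) K) ^ 2 = 1 := by
      apply AdjoinRoot.algHom_ext
      rw [pow_two]
      show ((r ^ Fintype.card (ZMod q)) ^ Fintype.card (ZMod q)) = r
      rw [ZMod.card, ← pow_mul, ← pow_two]
      exact hrr
    have hdvd := orderOf_dvd_of_pow_eq_one hfr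
    rw [FiniteField.orderOf_frobeniusAlgHom] at hdvd
    have hfk : Module.finrank (ZMod q) K ≤ 2 := Nat.le_of_dvd (by norm_num) hdvd
    rw [(AdjoinRoot.powerBasis hπ0).finrank, AdjoinRoot.powerBasis_dim] at hfk
    obtain ⟨w0, hw0⟩ := exists_ne (0 : W)
    have hmon : π.Monic := minpoly.monic hint
    -- the cyclic submodule
    let U : Submodule (ZMod q) W := LinearMap.range
      ({ toFun := fun p => aeval aL p w0
         map_add' := fun p r => by rw [map_add]; rfl
         map_smul' := fun c p => by rw [map_smul]; rfl } : (ZMod q)[X] →ₗ[ZMod q] W)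
    have hU : ∀ w, w ∈ U ↔ ∃ p : (ZMod q)[X], aeval aL p w0 = w := fun w => Iff.rfl
    have hUtop : U = ⊤ := by
      rcases hirr U (by
        intro u hu
        rw [hU] at hu ⊢
        obtain ⟨p, rfl⟩ := hu
        refine ⟨X * p, ?_⟩
        rw [map_mul, aeval_X]; rfl) with h | h
      · exfalso
        apply hw0
        have h1 : w0 ∈ U := ⟨1, by show aeval aL (1 : (ZMod q)[X]) w0 = w0; rw [map_one]; rfl⟩
        rw [h] at h1
        exact h1
      · exact h
    have hspan : (⊤ : Submodule (ZMod q) W) ≤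
        Submodule.span (ZMod q) (Set.range (fun i : Fin π.natDegree => (aL ^ (i : ℕ)) w0)) := by
      rw [← hUtop]
      intro w hw
      rw [hU] at hw
      obtain ⟨p, rfl⟩ := hw
      have h1 : aeval aL p = aeval aL (p %ₘ π) := by
        conv_lhs => rw [← modByMonic_add_div p π]
        rw [map_add, map_mul, hπa, zero_mul, add_zero]
      have h2 : natDegree (p %ₘ π) < natDegree π := by
        apply natDegree_modByMonic_lt p hmon
        intro h
        have := minpoly.not_isUnit (ZMod q) aL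
        rw [← hπ, h] at this
        exact this isUnit_one
      rw [h1, aeval_eq_sum_range' h2, LinearMap.sum_apply]
      apply Submodule.sum_mem
      intro i hi
      rw [LinearMap.smul_apply]
      apply Submodule.smul_mem
      exact Submodule.subset_span ⟨⟨i, Finset.mem_range.1 hi⟩, rfl⟩
    have hfw : Module.finrank (ZMod q) W ≤ 2 := by
      have h1 : Module.finrank (ZMod q) W ≤ Fintype.card (Fin π.natDegree) := by
        rw [← finrank_top]
        rw [top_le_iff] at hspan
        rw [← hspan]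
        exact finrank_range_le_card _
      rw [Fintype.card_fin] at h1
      omega
    exact hfw

end Field

section NT

theorem two_pow_dvd {q j m : ℕ} (hq : Odd q) (h1 : 2 ^ m ∣ q ^ (2 * j) - 1) (h2 : 4 ∣ q ^ j + 1) :
    2 ^ m ∣ q ^ 2 - 1 := by
  have hj : Odd j := by
    by_contra hcon
    rw [Nat.not_odd_iff_even] at hcon
    obtain ⟨i, rfl⟩ := hcon
    have h3 : Odd (q ^ i) := hq.pow
    obtain ⟨c, hc⟩ := h3
    rw [pow_add, hc] at h2
    have h4 : (2 * c + 1) * (2 * c + 1) + 1 = 4 * (c * c + c) + 2 := by ring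
    rw [h4] at h2
    omega
  have hq0 : 0 < q := hq.pos
  have e1 : ((q ^ (2 * j) - 1 : ℕ) : ℤ) = ((q : ℤ) ^ 2 - 1) * ∑ i ∈ Finset.range j, ((q : ℤ) ^ 2) ^ i := by
    rw [mul_geom_sum, ← pow_mul, Nat.cast_sub (Nat.one_le_pow _ _ hq0)]
    push_cast; ring
  have e2 : ((q ^ 2 - 1 : ℕ) : ℤ) = (q : ℤ) ^ 2 - 1 := by
    rw [Nat.cast_sub (Nat.one_le_pow _ _ hq0)]
    push_cast; ring
  have hS : Odd (∑ i ∈ Finset.range j, ((q : ℤ) ^ 2) ^ i) := by
    rw [Int.odd_iff]
    have h3 : (∑ i ∈ Finset.range j, ((q : ℤ) ^ 2) ^ i) ≡ ∑ i ∈ Finset.range j, 1 [ZMOD 2] := by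
      apply Int.ModEq.sum
      intro i _
      have h4 : Odd (((q : ℤ) ^ 2) ^ i) := by
        have : Odd (q : ℤ) := by exact_mod_cast hq
        exact this.pow.pow
      exact Int.odd_iff.1 h4
    rw [Finset.sum_const, Finset.card_range, nsmul_eq_mul, mul_one] at h3
    rw [h3.eq]
    exact Int.odd_iff.1 (by exact_mod_cast hj)
  have h3 : ((2 ^ m : ℕ) : ℤ) ∣ ((q : ℤ) ^ 2 - 1) * ∑ i ∈ Finset.range j, ((q : ℤ) ^ 2) ^ i := by
    rw [← e1]; exact_mod_cast h1
  have h4 : IsCoprime ((2 ^ m : ℕ) : ℤ) (∑ i ∈ Finset.range j, ((q : ℤ) ^ 2) ^ i) := by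
    push_cast
    apply IsCoprime.pow_left
    rw [Int.isCoprime_iff_gcd_eq_one]
    have := Int.odd_iff.1 hS
    rw [← Int.isCoprime_iff_gcd_eq_one]
    refine ⟨-((∑ i ∈ Finset.range j, ((q : ℤ) ^ 2) ^ i) / 2), 1, ?_⟩
    have h5 := Int.emod_add_mul_ediv (∑ i ∈ Finset.range j, ((q : ℤ) ^ 2) ^ i) 2
    rw [this] at h5
    linarith
  have h5 := h4.dvd_of_dvd_mul_right h3
  rw [← e2] at h5
  exact_mod_cast h5

end NT

end Cfsg.Agent.QBaer
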