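import Cfsg.Agent.QBaer.Linear

/-!
# Perfect linear groups with all orbits of 2-power size, II (helper15)
-/

set_option autoImplicit false
set_option linter.style.haveILetI false

namespace Cfsg.Agent.QBaer

open Subgroup
open scoped Pointwise

section Lin

variable {q : ℕ} [Fact q.Prime] {W : Type*} [AddCommGroup W] [Module (ZMod q) W]
variable {H P : Subgroup (W ≃ₗ[ZMod q] W)}

/-- A perfect finite group has no subgroup of index two. -/
theorem index_ne_two_of_perfect {G : Type*} [Group G] (hG : commutator G = ⊤) (K : Subgroup G) :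
    K.index ≠ 2 := by
  intro hK
  have hn : K.Normal := Subgroup.normal_of_index_eq_two hK
  have hp : Nat.card (G ⧸ K) = 2 := hK
  have h2 : Fact (Nat.Prime 2) := ⟨Nat.prime_two⟩
  have hcyc : IsCyclic (G ⧸ K) := isCyclic_of_prime_card hp
  have hle : commutator G ≤ K := by
    rw [commutator_def, Subgroup.commutator_le]
    intro x _ y _
    rw [← QuotientGroup.eq_one_iff]
    have h3 : ((x : G ⧸ K)) * y = y * x := by
      obtain ⟨g, hg⟩ := IsCyclic.exists_generator (α := G ⧸ K)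
      obtain ⟨i, hi⟩ := hg x
      obtain ⟨j, hj⟩ := hg y
      rw [← hi, ← hj]
      show g ^ i * g ^ j = g ^ j * g ^ i
      rw [← zpow_add, ← zpow_add, add_comm]
    rw [commutatorElement_def]
    show ((x : G ⧸ K)) * y * (x : G ⧸ K)⁻¹ * (y : G ⧸ K)⁻¹ = 1
    rw [h3]; group
  rw [hG, top_le_iff] at hle
  rw [hle, index_top] at hK
  omega

/-- the structure of `P` -/
theorem Irr2.exists_ab (hI : Irr2 q W H P) [Finite W] (hPi : ¬ 2 ∣ P.relIndex H) (hP : P ≠ ⊥) :
    ∃ (a b : P) (m k : ℕ), orderOf a = 2 ^ m ∧ 2 ≤ m ∧ (zpowers a).index = 2 ∧ b ∉ zpowers a ∧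
      b * a * b⁻¹ = a ^ k ∧ 4 ∣ k + 1 := by
  classical
  have hfin : Finite (W ≃ₗ[ZMod q] W) := Finite.of_injective (fun f => (f : W → W)) DFunLike.coe_injective
  have h2 : Fact (Nat.Prime 2) := ⟨Nat.prime_two⟩
  have hna : ∃ x y : P, x * y ≠ y * x := by
    by_contra hcon
    push Not at hcon
    have hc : IsMulCommutative (⊤ : Subgroup P) := ⟨⟨fun x y => Subtype.ext (hcon x y)⟩⟩
    have hcyc : IsCyclic (⊤ : Subgroup P) := hI.isCyclic_of_normal ⊤ inferInstance hc
    have hPT : IsPGroup 2 (P.subgroupOf H) := by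
      have e := Subgroup.subgroupOfEquivOfLe hI.le
      exact hI.two.of_equiv e.symm
    let T : Sylow 2 H := hPT.toSylow (by exact hPi)
    have hTc : IsCyclic (T : Subgroup H) := by
      have e : (P.subgroupOf H) ≃* P := Subgroup.subgroupOfEquivOfLe hI.le
      have e2 : (⊤ : Subgroup P) ≃* P := Subgroup.topEquiv
      have h3 : IsCyclic P := e2.isCyclic.1 hcyc
      have h4 : IsCyclic (P.subgroupOf H) := e.isCyclic.2 h3
      exact h4
    have heven : Even (Nat.card H) := by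
      rw [even_iff_two_dvd]
      have hnt : Nontrivial P := (Subgroup.nontrivial_iff_ne_bot P).2 hP
      obtain ⟨k, hk⟩ := IsPGroup.iff_card.1 hI.two
      have hk0 : k ≠ 0 := by
        rintro rfl
        rw [pow_zero] at hk
        exact absurd hk (Finite.one_lt_card_iff_nontrivial.2 hnt).ne'
      have h3 : Nat.card P ∣ Nat.card H := Subgroup.card_dvd_of_le hI.le
      rw [hk] at h3
      exact (dvd_pow_self 2 hk0).trans h3
    obtain ⟨K, hK⟩ := H80.exists_index_two_of_cyclic_sylow heven T hTc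
    exact index_ne_two_of_perfect hI.perf K hK
  obtain ⟨-, a, hAn, hcent, hidx, m, hm2, ham⟩ :=
    Cfsg.Agent.H9.exists_cyclic_index_two hI.two (fun A hA hAc => hI.isCyclic_of_normal A hA hAc) hna
  have hcard : Nat.card P = 2 ^ (m + 1) := by
    rw [← Subgroup.card_mul_index (Subgroup.zpowers a), hidx, Nat.card_zpowers, ham, pow_succ]
  have hA : IsCyclic (zpowers a) := inferInstance
  obtain ⟨a', b', hz, ha', hb', hrel⟩ := Cfsg.Agent.MaxClass.two_group_cyclic_max (m + 1) (by omega)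
    hcard (Subgroup.zpowers a) hA hidx hna
  have e1 : m + 1 - 1 = m := by omega
  have e2 : m + 1 - 2 = m - 1 := by omega
  rw [e1] at ha'
  rw [e2] at hrel
  have hidx' : (zpowers a').index = 2 := by rw [hz]; exact hidx
  have hinv : a'⁻¹ = a' ^ (2 ^ m - 1) := by
    rw [inv_eq_iff_mul_eq_one, ← pow_succ', Nat.sub_add_cancel (Nat.one_le_two_pow), ← ha',
      pow_orderOf_eq_one]
  have h4m : 4 ∣ 2 ^ m - 1 + 1 := by
    rw [Nat.sub_add_cancel (Nat.one_le_two_pow)]
    have : (4 : ℕ) = 2 ^ 2 := by norm_num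
    rw [this]
    exact pow_dvd_pow 2 hm2
  rcases hrel with ⟨-, hconj⟩ | ⟨-, hconj⟩ | ⟨hm4, hb2, hconj⟩ | ⟨hm4, hb2, hconj⟩
  · exact ⟨a', b', m, 2 ^ m - 1, ha', hm2, hidx', hb', by rw [hconj, hinv], h4m⟩
  · exact ⟨a', b', m, 2 ^ m - 1, ha', hm2, hidx', hb', by rw [hconj, hinv], h4m⟩
  · exfalso
    rw [← hz] at hAn hcent
    obtain ⟨E, hEn, hEab, hE2, hEc⟩ := Cfsg.Agent.H9.exists_normal_elementary_of_conj (p := 2) a' hAn
      hcent m ha' hm2 (fun _ => by omega) b' hb' (1 + 2 ^ (m - 1)) (by rw [hconj]; norm_cast)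
      ⟨1, by push_cast; ring⟩
    obtain ⟨e, he⟩ := (Subgroup.isCyclic_iff_exists_zpowers_eq_top E).1
      (hI.isCyclic_of_normal E hEn hEab)
    have h1 : orderOf e = 4 := by rw [← Nat.card_zpowers, he, hEc]; norm_num
    have h2 := orderOf_dvd_of_pow_eq_one (hE2 e (by rw [← he]; exact Subgroup.mem_zpowers e))
    rw [h1] at h2
    omega
  · refine ⟨a', b', m, 2 ^ (m - 1) - 1, ha', hm2, hidx', hb', hconj, ?_⟩
    rw [Nat.sub_add_cancel (Nat.one_le_two_pow)]
    have : (4 : ℕ) = 2 ^ 2 := by norm_num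
    rw [this]
    exact pow_dvd_pow 2 (by omega)

/-- the cyclic subgroup of index two is irreducible -/
theorem Irr2.irr_a (hI : Irr2 q W H P) [Finite W] {a b : P}
    (hidx : (zpowers a).index = 2) (hb : b ∉ zpowers a)
    (U : Submodule (ZMod q) W) (hU : ∀ u ∈ U, (a : W ≃ₗ[ZMod q] W) u ∈ U) : U = ⊥ ∨ U = ⊤ := by
  classical
  have hfin : Finite (W ≃ₗ[ZMod q] W) := Finite.of_injective (fun f => (f : W → W)) DFunLike.coe_injective
  have hpow : ∀ n : ℕ, ∀ u ∈ U, ((a ^ n : P) : W ≃ₗ[ZMod q] W) u ∈ U := by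
    intro n
    induction n with
    | zero => intro u hu; exact hu
    | succ n ih =>
      intro u hu
      rw [pow_succ']
      exact hU _ (ih u hu)
  have hz : ∀ c ∈ zpowers a, ∀ u ∈ U, ((c : P) : W ≃ₗ[ZMod q] W) u ∈ U := by
    intro c hc
    obtain ⟨n, rfl⟩ := (mem_powers_iff_mem_zpowers.2 hc)
    exact hpow n
  have hn : (zpowers a).Normal := Subgroup.normal_of_index_eq_two hidx
  let U' : Submodule (ZMod q) W := U.map ((b : W ≃ₗ[ZMod q] W) : W →ₗ[ZMod q] W)
  have hU' : ∀ w, w ∈ U' ↔ ∃ u ∈ U, (b : W ≃ₗ[ZMod q] W) u = w := fun w => Iff.rfl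
  have hA : ∀ c ∈ zpowers a, Stab2 U U' (c : P) := by
    intro c hc
    refine ⟨hz c hc, ?_⟩
    intro w hw
    rw [hU'] at hw ⊢
    obtain ⟨u, hu, rfl⟩ := hw
    have h1 : b⁻¹ * c * b ∈ zpowers a := by
      have := hn.conj_mem c hc b⁻¹
      rwa [inv_inv] at this
    refine ⟨_, hz _ h1 u hu, ?_⟩
    show ((b * (b⁻¹ * c * b) : P) : W ≃ₗ[ZMod q] W) u = ((c * b : P) : W ≃ₗ[ZMod q] W) u
    congr 2
    group
  have hsw : ∀ t ∈ P, Stab2 U U' t ∨ Swap2 U U' t := by
    intro t ht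
    by_cases htA : (⟨t, ht⟩ : P) ∈ zpowers a
    · exact Or.inl (hA ⟨t, ht⟩ htA)
    · right
      have h1 : (⟨t, ht⟩ : P) * b⁻¹ ∈ zpowers a := by
        rw [Subgroup.mul_mem_iff_of_index_two hidx]
        constructor
        · intro h; exact absurd h htA
        · intro h; exact absurd (by simpa using inv_mem h) hb
      set c := (⟨t, ht⟩ : P) * b⁻¹ with hc
      have htc : (⟨t, ht⟩ : P) = c * b := by rw [hc]; group
      have hb2 : b * b ∈ zpowers a := by
        rw [Subgroup.mul_mem_iff_of_index_two hidx]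
      have ht' : ∀ w, t w = (c : W ≃ₗ[ZMod q] W) ((b : W ≃ₗ[ZMod q] W) w) := by
        intro w
        have := congrArg Subtype.val htc
        exact DFunLike.congr_fun this w
      constructor
      · intro u hu
        rw [ht']
        exact (hA c h1).2 _ ⟨u, hu, rfl⟩
      · intro w hw
        rw [hU'] at hw
        obtain ⟨u, hu, rfl⟩ := hw
        rw [ht']
        exact hz c h1 _ (hz _ hb2 u hu)
  have hcases : U ≤ U' ∨ U' ≤ U := by
    by_contra hcon
    push Not at hcon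
    exact hI.no_swap hcon.1 hcon.2 hsw
  have hfr : Module.finrank (ZMod q) U' = Module.finrank (ZMod q) U :=
    LinearEquiv.finrank_map_eq (b : W ≃ₗ[ZMod q] W) U
  have heq : U = U' := by
    rcases hcases with h | h
    · exact Submodule.eq_of_le_of_finrank_eq h hfr.symm
    · exact (Submodule.eq_of_le_of_finrank_eq h hfr).symm
  apply hI.irr
  intro t ht u hu
  rcases hsw t ht with h | h
  · exact h.1 u hu
  · rw [heq]; exact h.1 u hu

/-- determinant one and a fixed vector in dimension at most two -/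
theorem eq_one_of_det [Finite W] (h : W ≃ₗ[ZMod q] W) {w : W} (hw0 : w ≠ 0) (hw : h w = w)
    (hdet : LinearEquiv.det h = 1) (hfin : Module.finrank (ZMod q) W ≤ 2)
    (hcop : (orderOf h).Coprime q) : h = 1 := by
  classical
  ext w'
  show h w' = w'
  by_cases hs : ∃ c : ZMod q, c • w = w'
  · obtain ⟨c, rfl⟩ := hs
    rw [map_smul, hw]
  push Not at hs
  have hli : LinearIndependent (ZMod q) ![w, w'] := (LinearIndependent.pair_iff' hw0).2 hs
  have hfr : Fintype.card (Fin 2) = Module.finrank (ZMod q) W := by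
    rw [Fintype.card_fin]
    have h1 := hli.fintype_card_le_finrank
    rw [Fintype.card_fin] at h1
    omega
  let B : Module.Basis (Fin 2) (ZMod q) W := basisOfLinearIndependentOfCardEqFinrank hli hfr
  have hB0 : B 0 = w := by simp [B]
  have hB1 : B 1 = w' := by simp [B]
  have hdet' : LinearMap.det (h : W →ₗ[ZMod q] W) = 1 := by
    rw [← LinearEquiv.coe_det, hdet]; rfl
  rw [← LinearMap.det_toMatrix B, Matrix.det_fin_two] at hdet'
  simp only [LinearMap.toMatrix_apply, LinearEquiv.coe_coe] at hdet'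
  rw [hB0, hB1, hw] at hdet'
  have e0 : B.repr w 0 = 1 := by rw [← hB0]; simp
  have e1 : B.repr w 1 = 0 := by rw [← hB0]; simp
  rw [e0, e1, one_mul, mul_zero, sub_zero] at hdet'
  set c := B.repr (h w') 0 with hc
  have hexp : h w' = c • w + w' := by
    have h1 := B.sum_repr (h w')
    rw [Fin.sum_univ_two, hdet', one_smul, hB0, hB1] at h1
    exact h1.symm
  have hn : ∀ n : ℕ, (h ^ n) w' = ((n : ZMod q) * c) • w + w' := by
    intro n
    induction n with
    | zero => simp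
    | succ n ih =>
      rw [pow_succ']
      show h ((h ^ n) w') = _
      rw [ih, map_add, map_smul, hw, hexp, ← add_assoc, ← add_smul]
      congr 2
      push_cast; ring
  have h1 := hn (orderOf h)
  rw [pow_orderOf_eq_one] at h1
  have h2 : (((orderOf h : ℕ) : ZMod q) * c) • w = 0 := by
    have : w' = (((orderOf h : ℕ) : ZMod q) * c) • w + w' := h1
    exact right_eq_add.1 this
  have h3 := (smul_eq_zero.1 h2).resolve_right hw0
  have h4 : ((orderOf h : ℕ) : ZMod q) ≠ 0 := by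
    intro h5
    rw [ZMod.natCast_eq_zero_iff] at h5
    have := Nat.dvd_gcd h5 (dvd_refl q)
    rw [hcop.gcd_eq_one] at this
    exact (Fact.out : q.Prime).one_lt.ne' (Nat.dvd_one.1 this)
  have h5 : c = 0 := (mul_eq_zero.1 h3).resolve_left h4
  rw [hexp, h5, zero_smul, zero_add]

/-- the main theorem of the irreducible case -/
theorem Irr2.eq_bot (hI : Irr2 q W H P) [Finite W] (hPi : ¬ 2 ∣ P.relIndex H)
    (hcop : (Nat.card H).Coprime q) : P = ⊥ := by
  classical
  by_contra hP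
  have hfin : Finite (W ≃ₗ[ZMod q] W) := Finite.of_injective (fun f => (f : W → W)) DFunLike.coe_injective
  obtain ⟨a, b, m, k, ham, hm2, hidx, hb, hconj, h4⟩ := hI.exists_ab hPi hP
  have hirr := hI.irr_a hidx hb
  have hnt : Nontrivial W := by
    by_contra hcon
    rw [not_nontrivial_iff_subsingleton] at hcon
    apply hP
    rw [eq_bot_iff]
    intro t _
    rw [mem_bot]
    ext w
    exact Subsingleton.elim _ _
  obtain ⟨w0, hw0⟩ := exists_ne (0 : W)
  let aL : Module.End (ZMod q) W := ((a : W ≃ₗ[ZMod q] W) : W →ₗ[ZMod q] W)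
  have hpowL : ∀ n : ℕ, aL ^ n = (((a ^ n : P) : W ≃ₗ[ZMod q] W) : W →ₗ[ZMod q] W) := by
    intro n
    induction n with
    | zero => rfl
    | succ n ih =>
      rw [pow_succ, ih, pow_succ]; rfl
  have hinjL : ∀ s t : P, ((s : W ≃ₗ[ZMod q] W) : W →ₗ[ZMod q] W) = ((t : W ≃ₗ[ZMod q] W) : W →ₗ[ZMod q] W) →
      s = t := by
    intro s t h
    apply Subtype.ext
    exact LinearEquiv.toLinearMap_injective h
  obtain ⟨⟨j, hj⟩, hfr⟩ := field_lemma aL (fun U hU => hirr U hU) k (by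
    intro p hp
    have hbb : ((b : W ≃ₗ[ZMod q] W) : W →ₗ[ZMod q] W) ∘ₗ aL = (aL ^ k) ∘ₗ ((b : W ≃ₗ[ZMod q] W) : W →ₗ[ZMod q] W) := by
      have h1 : b * a = a ^ k * b := by rw [← hconj]; group
      rw [hpowL]
      have h2 := congrArg Subtype.val h1
      ext w
      exact DFunLike.congr_fun h2 w
    have hcomm : ∀ n : ℕ, ((b : W ≃ₗ[ZMod q] W) : W →ₗ[ZMod q] W) ∘ₗ (aL ^ n) =
        ((aL ^ k) ^ n) ∘ₗ ((b : W ≃ₗ[ZMod q] W) : W →ₗ[ZMod q] W) := by
      intro n
      induction n with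
      | zero => rfl
      | succ n ih =>
        ext w
        have h3 : (((b : W ≃ₗ[ZMod q] W) : W →ₗ[ZMod q] W) ∘ₗ (aL ^ n)) (aL w) =
          (((aL ^ k) ^ n) ∘ₗ ((b : W ≃ₗ[ZMod q] W) : W →ₗ[ZMod q] W)) (aL w) := by rw [ih]
        have h4 : (((b : W ≃ₗ[ZMod q] W) : W →ₗ[ZMod q] W) ∘ₗ aL) w =
          ((aL ^ k) ∘ₗ ((b : W ≃ₗ[ZMod q] W) : W →ₗ[ZMod q] W)) w := by rw [hbb]
        rw [pow_succ, pow_succ]
        show (((b : W ≃ₗ[ZMod q] W) : W →ₗ[ZMod q] W) ∘ₗ (aL ^ n)) (aL w) = ((aL ^ k) ^ n) ((aL ^ k) ((b : W ≃ₗ[ZMod q] W) w))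
        rw [h3]
        exact congrArg _ h4
    have hall' : ∀ p : Polynomial (ZMod q), ((b : W ≃ₗ[ZMod q] W) : W →ₗ[ZMod q] W) ∘ₗ
        (Polynomial.aeval aL p) =
        (Polynomial.aeval (aL ^ k) p) ∘ₗ ((b : W ≃ₗ[ZMod q] W) : W →ₗ[ZMod q] W) := by
      intro p
      induction p using Polynomial.induction_on' with
      | add p r hp hr => rw [map_add, map_add, LinearMap.comp_add, LinearMap.add_comp, hp, hr]
      | monomial n c =>
        ext w
        rw [Polynomial.aeval_monomial, Polynomial.aeval_monomial]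
        have h5 := LinearMap.congr_fun (hcomm n) w
        have h6 : (b : W ≃ₗ[ZMod q] W) ((aL ^ n) w) = ((aL ^ k) ^ n) ((b : W ≃ₗ[ZMod q] W) w) := h5
        show (b : W ≃ₗ[ZMod q] W) ((algebraMap (ZMod q) (Module.End (ZMod q) W) c) ((aL ^ n) w)) =
          (algebraMap (ZMod q) (Module.End (ZMod q) W) c) (((aL ^ k) ^ n) ((b : W ≃ₗ[ZMod q] W) w))
        rw [Module.algebraMap_end_apply, Module.algebraMap_end_apply, map_smul, h6]
    have hall := hall' p
    rw [hp, LinearMap.comp_zero] at hall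
    ext w
    have h5 := LinearMap.congr_fun hall ((b : W ≃ₗ[ZMod q] W).symm w)
    have h6 : (Polynomial.aeval (aL ^ k) p) ((b : W ≃ₗ[ZMod q] W) ((b : W ≃ₗ[ZMod q] W).symm w)) = 0 := h5.symm
    rw [LinearEquiv.apply_symm_apply] at h6
    exact h6)
  have hj' : a ^ k = a ^ (q ^ j) := by
    rw [hpowL, hpowL] at hj
    exact hinjL _ _ hj
  have hodd : Odd q := (Fact.out : q.Prime).odd_of_ne_two hI.odd
  have hkj : k ≡ q ^ j [MOD 2 ^ m] := by
    rw [← ham]; exact pow_eq_pow_iff_modEq.1 hj'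
  have h4m : 4 ∣ 2 ^ m := by
    have : (4 : ℕ) = 2 ^ 2 := by norm_num
    rw [this]
    exact pow_dvd_pow 2 hm2
  have h4j : 4 ∣ q ^ j + 1 := by
    have h5 : k + 1 ≡ q ^ j + 1 [MOD 4] := (hkj.of_dvd h4m).add_right 1
    exact (h5.dvd_iff (dvd_refl 4)).1 h4
  have hbb : (b * b) * a * (b * b)⁻¹ = a := by
    have h5 : b * b ∈ zpowers a := by rw [Subgroup.mul_mem_iff_of_index_two hidx]
    obtain ⟨i, hi⟩ := h5
    have h6 : a ^ i = b * b := hi
    rw [← h6]; group
  have hbb2 : (b * b) * a * (b * b)⁻¹ = a ^ (q ^ (2 * j)) := by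
    have h5 : b * a * b⁻¹ = a ^ (q ^ j) := by rw [hconj, hj']
    have h6 : (b * b) * a * (b * b)⁻¹ = b * (b * a * b⁻¹) * b⁻¹ := by group
    rw [h6, h5, ← conj_pow, h5, ← pow_mul, ← pow_add, two_mul]
  have hdvd : 2 ^ m ∣ q ^ (2 * j) - 1 := by
    have h5 : a ^ 1 = a ^ (q ^ (2 * j)) := by rw [pow_one, ← hbb2, hbb]
    have h6 := pow_eq_pow_iff_modEq.1 h5
    rw [ham] at h6
    exact (Nat.modEq_iff_dvd' (Nat.one_le_pow _ _ hodd.pos)).1 h6
  have hq2 := two_pow_dvd hodd hdvd h4j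
  have haq : a ^ (q ^ 2) = a := by
    have h5 : a ^ (q ^ 2 - 1) = 1 := by
      rw [← ham] at hq2
      exact orderOf_dvd_iff_pow_eq_one.1 hq2
    have h6 : q ^ 2 = (q ^ 2 - 1) + 1 := (Nat.sub_add_cancel (Nat.one_le_pow _ _ hodd.pos)).symm
    rw [h6, pow_succ, h5, one_mul]
  have hrank := hfr (by rw [hpowL, haq])
  -- `det = 1` on `H`
  have hdet : ∀ h ∈ H, LinearEquiv.det h = 1 := by
    intro h hh
    have h5 : commutator H ≤ ((LinearEquiv.det (R := ZMod q) (M := W)).comp H.subtype).ker :=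
      Abelianization.commutator_subset_ker _
    rw [hI.perf] at h5
    exact h5 (mem_top (⟨h, hh⟩ : H))
  have hHP : H ≤ P := by
    intro h hh
    obtain ⟨t, ht, htw⟩ := hI.orb h hh w0
    have h5 : (t⁻¹ * h) w0 = w0 := by
      show t⁻¹ (h w0) = w0
      rw [htw]
      exact t.symm_apply_apply w0
    have h6 : t⁻¹ * h ∈ H := mul_mem (inv_mem (hI.le ht)) hh
    have h7 := eq_one_of_det (t⁻¹ * h) hw0 h5 (hdet _ h6) hrank
      (Nat.Coprime.coprime_dvd_left (Subgroup.orderOf_dvd_natCard H h6) hcop)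
    rw [inv_mul_eq_one] at h7
    rw [← h7]; exact ht
  have h2 : Fact (Nat.Prime 2) := ⟨Nat.prime_two⟩
  have hH2 : IsPGroup 2 H := hI.two.to_le hHP
  have hnil : Group.IsNilpotent H := hH2.isNilpotent
  have hntH : Nontrivial H := by
    rw [Subgroup.nontrivial_iff_ne_bot]
    intro h
    apply hP
    rw [eq_bot_iff, ← h]; exact hI.le
  have hlt := Group.IsSolvable.commutator_lt_top_of_nontrivial H
  rw [hI.perf] at hlt
  exact lt_irrefl _ hlt

end Lin

end Cfsg.Agent.QBaer
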