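import Cfsg.Agent.QBaer.Step

/-!
# Baer's theorem on `q`-elements of prime power class size, II (helper15)

All non-central `q`-elements belong to the same prime.
-/

set_option autoImplicit false
set_option linter.style.haveILetI false

namespace Cfsg.Agent.QBaer

open Subgroup Cfsg.Agent.H72
open scoped Pointwise commutatorElement

variable {G : Type*} [Group G] [Finite G] {q : ℕ} [Fact q.Prime]

theorem closure_normal {G : Type*} [Group G] {S : Set G} (h : ∀ w ∈ S, ∀ g : G, g * w * g⁻¹ ∈ S) :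
    (closure S).Normal := by
  have h1 : Group.conjugatesOfSet S = S := by
    ext z
    rw [Group.mem_conjugatesOfSet_iff]
    constructor
    · rintro ⟨w, hw, hwz⟩
      obtain ⟨c, hc⟩ := isConj_iff.1 hwz
      rw [← hc]; exact h w hw c
    · intro hz
      exact ⟨z, hz, IsConj.refl z⟩
  have h2 : normalClosure S = closure S := by rw [normalClosure, h1]
  rw [← h2]
  exact normalClosure_normal

/-- If a normal `q`-subgroup `O` has all its elements outside `Z1` of `q`-power class size, then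
every `q'`-element acts trivially on `O/Z1`. -/
theorem coprime_trivial {O Z1 : Subgroup G} (hO : O.Normal) (hOq : IsPGroup q O) (hZ : Z1.Normal)
    (hZO : Z1 ≤ O) (hw : ∀ w ∈ O, w ∉ Z1 → ∃ a, (Cx w).index = q ^ a) :
    ∀ ρ : G, (orderOf ρ).Coprime q → ∀ w ∈ O, ρ * w * ρ⁻¹ * w⁻¹ ∈ Z1 := by
  classical
  let π := QuotientGroup.mk' Z1
  have hπ1 : ∀ g : G, π g = 1 ↔ g ∈ Z1 := fun g => QuotientGroup.eq_one_iff g
  let X : Set (G ⧸ Z1) := π '' {ρ | (orderOf ρ).Coprime q}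
  let D : Subgroup G := O ⊓ (centralizer X).comap π
  have hDmem : ∀ w, w ∈ D ↔ w ∈ O ∧ ∀ ρ : G, (orderOf ρ).Coprime q → π ρ * π w = π w * π ρ := by
    intro w
    constructor
    · rintro ⟨h1, h2⟩
      refine ⟨h1, fun ρ hρ => ?_⟩
      exact (mem_centralizer_iff.1 (mem_comap.1 h2)) (π ρ) ⟨ρ, hρ, rfl⟩
    · rintro ⟨h1, h2⟩
      refine ⟨h1, mem_comap.2 (mem_centralizer_iff.2 ?_)⟩
      rintro _ ⟨ρ, hρ, rfl⟩
      exact h2 ρ hρ
  have hDn : D.Normal := by
    constructor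
    intro w hwD g
    rw [hDmem] at hwD ⊢
    refine ⟨hO.conj_mem _ hwD.1 g, fun ρ hρ => ?_⟩
    have h1 : (orderOf (g⁻¹ * ρ * g)).Coprime q := by
      have : orderOf (g⁻¹ * ρ * g) = orderOf ρ := by
        have := (MulAut.conj g⁻¹).orderOf_eq ρ
        simpa [MulAut.conj_apply] using this
      rwa [this]
    have h2 := hwD.2 _ h1
    simp only [map_mul, map_inv] at h2 ⊢
    have h3 : π ρ * π g * π w = π g * π w * (π g)⁻¹ * π ρ * π g := by
      calc π ρ * π g * π w = π g * ((π g)⁻¹ * π ρ * π g * π w) := by group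
        _ = π g * (π w * ((π g)⁻¹ * π ρ * π g)) := by rw [h2]
        _ = _ := by group
    calc π ρ * (π g * π w * (π g)⁻¹) = (π ρ * π g * π w) * (π g)⁻¹ := by group
      _ = _ := by rw [h3]; group
  have hmain : D = O := by
    by_contra hne
    have hDO : D ≤ O := inf_le_left
    obtain ⟨Q⟩ : Nonempty (Sylow q G) := inferInstance
    let πD := QuotientGroup.mk' D
    have hπD : ∀ g : G, πD g = 1 ↔ g ∈ D := fun g => QuotientGroup.eq_one_iff g
    have hne' : O.map πD ≠ ⊥ := by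
      intro h
      apply hne
      apply le_antisymm hDO
      intro w hwO
      rw [← hπD]
      have : πD w ∈ O.map πD := mem_map_of_mem _ hwO
      rw [h, mem_bot] at this
      exact this
    obtain ⟨z, hz, hz1, hzc⟩ := H69.exists_fixed_of_isPGroup (P := (Q : Subgroup G).map πD)
      (N := O.map πD) (Q.isPGroup'.map _) (hOq.map _) hne' (by
        rintro _ ⟨x, hx, rfl⟩ _ ⟨n, hn, rfl⟩
        exact ⟨x * n * x⁻¹, hO.conj_mem _ hn x, by simp⟩)
    obtain ⟨w, hwO, rfl⟩ := hz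
    have hwD : w ∉ D := fun h => hz1 ((hπD w).2 h)
    have hwZ : w ∉ Z1 := by
      intro h
      apply hwD
      rw [hDmem]
      refine ⟨hwO, fun ρ _ => ?_⟩
      rw [(hπ1 w).2 h]; simp
    obtain ⟨a, ha⟩ := hw w hwO hwZ
    apply hwD
    rw [hDmem]
    refine ⟨hwO, fun ρ hρ => ?_⟩
    obtain ⟨u, hu, hux⟩ := exists_conj_sylow ha Q ρ
    set k := ρ * w * ρ⁻¹ * w⁻¹ with hk
    have hkD : k ∈ D := by
      rw [← hπD, hk, hux]
      have h1 := hzc (πD u) ⟨u, hu, rfl⟩
      simp only [map_mul, map_inv]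
      rw [h1]; group
    have hkc : π ρ * π k = π k * π ρ := ((hDmem k).1 hkD).2 ρ hρ
    have hkO : k ∈ O := hDO hkD
    have hρ' : (orderOf (π ρ)).Coprime q := Nat.Coprime.coprime_dvd_left (orderOf_map_dvd π ρ) hρ
    have hkk : ⁅π ρ, π w⁆ = π k := by rw [commutatorElement_def, hk]; simp
    have := H49.commute_of_commute_commutator (P := O.map π) (hOq.map π) (c := π ρ) (x := π w) hρ'
      (by rw [hkk]; exact ⟨k, hkO, rfl⟩) (by rw [hkk]; exact hkc)
    exact this
  intro ρ hρ w hwO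
  rw [← hmain, hDmem] at hwO
  rw [← hπ1]
  simp only [map_mul, map_inv]
  rw [hwO.2 ρ hρ]; group

/-- the class size of a product of two commuting elements with coprime class sizes -/
theorem index_mul_cases {x y : G} {r s t a b c : ℕ} (hr : r.Prime) (hs : s.Prime) (ht : t.Prime)
    (hrs : r ≠ s) (ha : (Cx x).index = r ^ a) (hb : (Cx y).index = s ^ b) (ha0 : a ≠ 0)
    (hc : (Cx (x * y)).index = t ^ c) (hxy : Commute x y) :
    (Cx (x * y)).index = (Cx x).index ∨ (Cx (x * y)).index = (Cx y).index := by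
  have hcop : (Cx x).index.Coprime (Cx y).index := by
    rw [ha, hb]
    exact Nat.Coprime.pow _ _ ((Nat.coprime_primes hr hs).2 hrs)
  have h1 : (Cx (x * y)).index ∣ (Cx x).index * (Cx y).index := by
    rw [← inf_index_of_coprime hcop]
    apply index_dvd_of_le
    intro g hg
    have hg1 : g * x = x * g := mem_Cx.1 hg.1
    have hg2 : g * y = y * g := mem_Cx.1 hg.2
    rw [mem_Cx]
    calc g * (x * y) = (g * x) * y := by group
      _ = x * (g * y) := by rw [hg1, mul_assoc]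
      _ = x * y * g := by rw [hg2, mul_assoc]
  have hge : ∀ x y : G, (Cx x).index.Coprime (Cx y).index → (Cx y).index ≤ (Cx (x * y)).index := by
    intro x y h
    rw [← card_Cl, ← card_Cl, Nat.card_coe_set_eq, Nat.card_coe_set_eq,
      ← Set.ncard_smul_set x (Cl y)]
    apply Set.ncard_le_ncard _ (Set.toFinite _)
    rintro _ ⟨v, hv, rfl⟩
    have := mul_mem_Cl_mul h 1 hv
    simpa using this
  have hy' := hge x y hcop
  have hx' : (Cx x).index ≤ (Cx (x * y)).index := by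
    have := hge y x hcop.symm
    rwa [← hxy.eq] at this
  rw [ha, hb, hc] at h1
  rw [hc] at hx' hy' ⊢
  rw [ha] at hx' ⊢
  rw [hb] at hy' ⊢
  have hc0 : c ≠ 0 := by
    rintro rfl
    rw [pow_zero] at hx'
    have := Nat.one_lt_pow ha0 hr.one_lt
    omega
  have ht1 : t ∣ r ^ a * s ^ b := (dvd_pow_self t hc0).trans h1
  rcases (Nat.Prime.dvd_mul ht).1 ht1 with h | h
  · left
    have h2 : t = r := (Nat.prime_dvd_prime_iff_eq ht hr).1 (ht.dvd_of_dvd_pow h)
    rw [h2] at h1 hx' ⊢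
    have h3 : r ^ c ∣ r ^ a := by
      refine Nat.Coprime.dvd_of_dvd_mul_right ?_ h1
      exact Nat.Coprime.pow _ _ ((Nat.coprime_primes hr hs).2 hrs)
    exact le_antisymm (Nat.le_of_dvd (pow_pos hr.pos _) h3) hx'
  · right
    have h2 : t = s := (Nat.prime_dvd_prime_iff_eq ht hs).1 (ht.dvd_of_dvd_pow h)
    rw [h2] at h1 hy' ⊢
    have h3 : s ^ c ∣ s ^ b := by
      refine Nat.Coprime.dvd_of_dvd_mul_left ?_ h1
      exact Nat.Coprime.pow _ _ ((Nat.coprime_primes hs hr).2 hrs.symm)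
    exact le_antisymm (Nat.le_of_dvd (pow_pos hs.pos _) h3) hy'

/-- an element of `q`-power order, non-central in `O_q(G)`, has `q`-power class size -/
theorem index_pow_of_not_commute
    (hB : ∀ x : G, QEl q x → ∃ r a : ℕ, r.Prime ∧ (Cx x).index = r ^ a)
    {u : G} (hu : QEl q u) {y : G} (hy : y ∈ Cfsg.pCore q G) (h : ¬ Commute u y) :
    ∃ a, a ≠ 0 ∧ (Cx u).index = q ^ a := by
  obtain ⟨r, a, hr, ha⟩ := hB u hu
  have ha0 : a ≠ 0 := by
    rintro rfl
    rw [pow_zero, Cx_index_eq_one_iff, mem_center_iff] at ha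
    exact h (ha y).symm
  by_cases hrq : r = q
  · exact ⟨a, ha0, by rw [ha, hrq]⟩
  · exfalso
    apply h
    apply commute_of_mem_pCore _ hy
    rw [ha]
    intro hd
    exact hrq ((Nat.prime_dvd_prime_iff_eq Fact.out hr).1 ((Fact.out : q.Prime).dvd_of_dvd_pow hd)).symm

/-- The core of step 3. -/
theorem core_step (hB : ∀ x : G, QEl q x → ∃ r a : ℕ, r.Prime ∧ (Cx x).index = r ^ a)
    {x y : G} (hx : QEl q x) (hy : QEl q y) {r a b : ℕ} (hr : r.Prime) (hrq : r ≠ q)
    (ha : (Cx x).index = r ^ a) (ha0 : a ≠ 0) (hb : (Cx y).index = q ^ b) (hb0 : b ≠ 0)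
    (he : (Cx (x * y)).index = (Cx y).index) : False := by
  classical
  have hqp : q.Prime := Fact.out
  have hcop : (Cx x).index.Coprime (Cx y).index := by
    rw [ha, hb]
    exact Nat.Coprime.pow _ _ ((Nat.coprime_primes hr hqp).2 hrq)
  have hqx : ¬ q ∣ (Cx x).index := by
    rw [ha]
    intro hd
    exact hrq ((Nat.prime_dvd_prime_iff_eq hqp hr).1 (hqp.dvd_of_dvd_pow hd)).symm
  -- the subgroup `O₁`
  let S : Set G := {w | QEl q w ∧ ∃ c, c ≠ 0 ∧ (Cx w).index = q ^ c}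
  let O : Subgroup G := closure S
  have hSO : ∀ w ∈ S, w ∈ Cfsg.pCore q G := by
    rintro w ⟨hw, c, -, hc⟩
    exact mem_pCore_of_index_pow hw hc
  have hOle : O ≤ Cfsg.pCore q G := (closure_le _).2 hSO
  have hOn : O.Normal := by
    apply closure_normal
    intro w hw g
    refine ⟨hw.1.conj g, ?_⟩
    obtain ⟨c, hc0, hc⟩ := hw.2
    exact ⟨c, hc0, by rw [Cx_index_conj, hc]⟩
  have hOq : IsPGroup q O := (H49.pCore_isPGroup q).to_le hOle
  -- its centre
  let Z1 : Subgroup G := O ⊓ centralizer (O : Set G)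
  have hZn : Z1.Normal := by
    have : (centralizer (O : Set G)).Normal := Subgroup.normal_centralizer
    infer_instance
  have key := coprime_trivial (q := q) hOn hOq hZn inf_le_left (by
    intro w hw hwZ
    have hnc : ∃ v ∈ O, ¬ Commute w v := by
      by_contra hcon
      push Not at hcon
      apply hwZ
      refine ⟨hw, mem_centralizer_iff.2 fun v hv => ?_⟩
      exact (hcon v hv).eq.symm
    obtain ⟨v, hv, hwv⟩ := hnc
    obtain ⟨c, -, hc⟩ := index_pow_of_not_commute hB (qel_of_mem hOq hw) (hOle hv) hwv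
    exact ⟨c, hc⟩)
  have hZc : ∀ z ∈ Z1, ∀ v ∈ O, z * v = v * z := by
    intro z hz v hv
    exact (mem_centralizer_iff.1 hz.2 v hv).symm
  -- `q'`-elements centralize commutators of `O`
  have key2 : ∀ ρ : G, (orderOf ρ).Coprime q → ∀ u ∈ O, ∀ v ∈ O, Commute ρ (u * v * u⁻¹ * v⁻¹) := by
    intro ρ hρ u hu v hv
    obtain ⟨z, hz, hzu⟩ : ∃ z ∈ Z1, ρ * u * ρ⁻¹ = z * u := ⟨_, key ρ hρ u hu, by group⟩
    obtain ⟨z', hz', hzv⟩ : ∃ z ∈ Z1, ρ * v * ρ⁻¹ = z * v := ⟨_, key ρ hρ v hv, by group⟩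
    have h1 : ρ * (u * v * u⁻¹ * v⁻¹) * ρ⁻¹ = u * v * u⁻¹ * v⁻¹ := by
      have h2 : ρ * (u * v * u⁻¹ * v⁻¹) * ρ⁻¹ =
          (ρ * u * ρ⁻¹) * (ρ * v * ρ⁻¹) * (ρ * u * ρ⁻¹)⁻¹ * (ρ * v * ρ⁻¹)⁻¹ := by group
      rw [h2, hzu, hzv]
      have e1 : u * z' = z' * u := (hZc z' hz' u hu).symm
      have e2 : v⁻¹ * z'⁻¹ = z'⁻¹ * v⁻¹ := (hZc _ (inv_mem hz') _ (inv_mem hv)).symm
      have e3 : z * (z' * u * v * u⁻¹) = (z' * u * v * u⁻¹) * z :=
        hZc z hz _ (mul_mem (mul_mem (mul_mem hz'.1 hu) hv) (inv_mem hu))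
      have e4 : z' * (u * v * u⁻¹ * v⁻¹) = (u * v * u⁻¹ * v⁻¹) * z' :=
        hZc z' hz' _ (mul_mem (mul_mem (mul_mem hu hv) (inv_mem hu)) (inv_mem hv))
      calc z * u * (z' * v) * (z * u)⁻¹ * (z' * v)⁻¹
          = z * (u * z') * v * u⁻¹ * z⁻¹ * v⁻¹ * z'⁻¹ := by group
        _ = (z * (z' * u * v * u⁻¹)) * z⁻¹ * (v⁻¹ * z'⁻¹) := by rw [e1]; group
        _ = z' * (u * v * u⁻¹) * z'⁻¹ * v⁻¹ := by rw [e3, e2]; group
        _ = z' * (u * v * u⁻¹) * (z'⁻¹ * v⁻¹) := by group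
        _ = z' * (u * v * u⁻¹) * (v⁻¹ * z'⁻¹) := by rw [e2]
        _ = (z' * (u * v * u⁻¹ * v⁻¹)) * z'⁻¹ := by group
        _ = u * v * u⁻¹ * v⁻¹ := by rw [e4]; group
    exact mul_inv_eq_iff_eq_mul.1 h1
  have hyS : y ∈ S := ⟨hy, b, hb0, hb⟩
  have hyO : y ∈ O := subset_closure hyS
  -- `x` commutes with every `q'`-element
  have key3 : ∀ ρ : G, (orderOf ρ).Coprime q → Commute ρ x := by
    intro ρ hρ
    set k := x⁻¹ * (ρ * x * ρ⁻¹) with hk
    obtain ⟨hk1, hk2⟩ := step_two hcop he hb ρ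
    rw [← hk] at hk1 hk2
    by_cases hk0 : k = 1
    · have h1 : ρ * x * ρ⁻¹ = x * k := by rw [hk]; group
      rw [hk0, mul_one] at h1
      exact mul_inv_eq_iff_eq_mul.1 h1
    · exfalso
      obtain ⟨Q, hQ⟩ := hy.exists_sylow
      obtain ⟨g, hg⟩ := hk2
      obtain ⟨u, hu, hux⟩ := exists_conj_sylow hb Q g
      have hku : k * y = u * y * u⁻¹ := by rw [← hux]; exact hg.symm
      have hkc : k = u * y * u⁻¹ * y⁻¹ := by rw [← hku]; group
      have hnc : ¬ Commute u y := by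
        intro h
        apply hk0
        rw [hkc, h.eq]; group
      have huq : QEl q u := qel_of_mem Q.isPGroup' hu
      obtain ⟨c, hc0, hc⟩ := index_pow_of_not_commute hB huq (hSO y hyS) hnc
      have huO : u ∈ O := subset_closure ⟨huq, c, hc0, hc⟩
      have hρk : Commute ρ k := by rw [hkc]; exact key2 ρ hρ u huO y hyO
      -- `ρ x ρ⁻¹ = x k`
      have hxk : Commute x k := commute_of_mem_pCore hqx hk1
      have hcom : ⁅ρ, x⁆ = k := by
        rw [commutatorElement_def]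
        have h1 : ρ * x * ρ⁻¹ = x * k := by rw [hk]; group
        rw [h1, hxk.eq]; group
      have := H49.commute_of_commute_commutator (H49.pCore_isPGroup q) (c := ρ) (x := x) hρ
        (by rw [hcom]; exact hk1) (by rw [hcom]; exact hρk)
      apply hk0
      rw [← hcom, commutatorElement_eq_one_iff_commute]
      exact this
  -- contradiction with `a ≠ 0`
  have hrF : Fact r.Prime := ⟨hr⟩
  obtain ⟨R⟩ : Nonempty (Sylow r G) := inferInstance
  have hR : (R : Subgroup G) ≤ Cx x := by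
    intro ρ hρ
    rw [mem_Cx]
    apply (key3 ρ _).eq
    obtain ⟨k, hk⟩ := qel_of_mem R.isPGroup' hρ
    rw [hk]
    exact Nat.Coprime.pow_left _ ((Nat.coprime_primes hr hqp).2 hrq)
  apply not_dvd_index_of_sylow_le R hR
  rw [ha]
  exact dvd_pow_self r ha0

/-- Step 3: one prime. -/
theorem one_prime_aux (hB : ∀ x : G, QEl q x → ∃ r a : ℕ, r.Prime ∧ (Cx x).index = r ^ a)
    {x y : G} (hx : QEl q x) (hy : QEl q y) {r s a b : ℕ} (hr : r.Prime) (hs : s.Prime) (hrs : r ≠ s)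
    (hrq : r ≠ q)
    (ha : (Cx x).index = r ^ a) (ha0 : a ≠ 0) (hb : (Cx y).index = s ^ b) (hb0 : b ≠ 0) : False := by
  have hqp : q.Prime := Fact.out
  have hqx : ¬ q ∣ (Cx x).index := by
    rw [ha]
    intro hd
    exact hrq ((Nat.prime_dvd_prime_iff_eq hqp hr).1 (hqp.dvd_of_dvd_pow hd)).symm
  obtain ⟨P, hxP, hP⟩ := exists_sylow_central hx hqx
  obtain ⟨Q, hyQ⟩ := hy.exists_sylow
  obtain ⟨g, hg⟩ := MulAction.exists_smul_eq G Q P
  have hy2 : g * y * g⁻¹ ∈ (P : Subgroup G) := by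
    rw [← hg]
    show g * y * g⁻¹ ∈ g • Q
    rw [mem_smul_sylow_iff]
    have : g⁻¹ * (g * y * g⁻¹) * g = y := by group
    rw [this]; exact hyQ
  set y' := g * y * g⁻¹ with hy'
  have hb' : (Cx y').index = s ^ b := by rw [hy', Cx_index_conj, hb]
  have hyq' : QEl q y' := hy.conj g
  have hcomm : Commute x y' := (mem_Cx.1 (hP hy2)).symm
  obtain ⟨t, c, ht, hc⟩ := hB (x * y') (hx.mul_of_commute hyq' hcomm)
  have hcop : (Cx x).index.Coprime (Cx y').index := by
    rw [ha, hb']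
    exact Nat.Coprime.pow _ _ ((Nat.coprime_primes hr hs).2 hrs)
  have hrF : Fact r.Prime := ⟨hr⟩
  have hsF : Fact s.Prime := ⟨hs⟩
  rcases index_mul_cases hr hs ht hrs ha hb' ha0 hc hcomm with h | h
  · -- then `y'` is central as `r ≠ q`
    have h1 : (Cx y').index = 1 := central_of_ne hyq' hcop.symm
      (by rw [← hcomm.eq]; exact h) ha ha0 hrq
    rw [hb'] at h1
    exact hb0 ((Nat.pow_eq_one.1 h1).resolve_left hs.one_lt.ne')
  · by_cases hsq : s = q
    · subst hsq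
      exact core_step hB hx hyq' hr hrq ha ha0 hb' hb0 h
    · have h1 : (Cx x).index = 1 := central_of_ne hx hcop h hb' hb0 hsq
      rw [ha] at h1
      exact ha0 ((Nat.pow_eq_one.1 h1).resolve_left hr.one_lt.ne')

theorem one_prime (hB : ∀ x : G, QEl q x → ∃ r a : ℕ, r.Prime ∧ (Cx x).index = r ^ a)
    {x y : G} (hx : QEl q x) (hy : QEl q y) {r s a b : ℕ} (hr : r.Prime) (hs : s.Prime)
    (ha : (Cx x).index = r ^ a) (ha0 : a ≠ 0) (hb : (Cx y).index = s ^ b) (hb0 : b ≠ 0) : r = s := by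
  by_contra hrs
  by_cases hrq : r = q
  · have hsq : s ≠ q := fun h => hrs (hrq.trans h.symm)
    exact one_prime_aux hB hy hx hs hr (Ne.symm hrs) hsq hb hb0 ha ha0
  · exact one_prime_aux hB hx hy hr hs hrs hrq ha ha0 hb hb0

/-- there is one prime `p` for all `q`-elements; if all `q`-elements are central we take `p = q`. -/
theorem exists_prime (hB : ∀ x : G, QEl q x → ∃ r a : ℕ, r.Prime ∧ (Cx x).index = r ^ a) :
    ∃ p : ℕ, p.Prime ∧ (∀ x : G, QEl q x → ∃ a, (Cx x).index = p ^ a) := by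
  by_cases h : ∃ x : G, QEl q x ∧ (Cx x).index ≠ 1
  · obtain ⟨x, hx, hx1⟩ := h
    obtain ⟨r, a, hr, ha⟩ := hB x hx
    have ha0 : a ≠ 0 := by rintro rfl; exact hx1 (by rw [ha, pow_zero])
    refine ⟨r, hr, fun y hy => ?_⟩
    obtain ⟨s, b, hs, hb⟩ := hB y hy
    by_cases hb0 : b = 0
    · exact ⟨0, by rw [hb, hb0, pow_zero, pow_zero]⟩
    · have := one_prime hB hx hy hr hs ha ha0 hb hb0
      exact ⟨b, by rw [hb, this]⟩
  · push Not at h
    exact ⟨q, Fact.out, fun x hx => ⟨0, by rw [h x hx, pow_zero]⟩⟩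

end Cfsg.Agent.QBaer
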