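import Cfsg.Agent.QBaer.Linear2
import Cfsg.Agent.H72.ClassSize
import Cfsg.Agent.H72.Basic

/-!
# Perfect groups of coprime automorphisms with orbits of 2-power size act trivially (helper15)
-/

set_option autoImplicit false
set_option linter.style.haveILetI false

namespace Cfsg.Agent.QBaer

open Subgroup
open scoped Pointwise

section Act

variable {R : Type*} [Group R] [Finite R] {V : Type*} [AddCommGroup V] [Finite V]
  [DistribMulAction R V]

/-- invariant additive subgroup -/
def InvSub (R : Type*) [Group R] {V : Type*} [AddCommGroup V] [DistribMulAction R V]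
    (W : AddSubgroup V) : Prop := ∀ h : R, ∀ w ∈ W, h • w ∈ W

/-- nontrivial action on `W` -/
def NtSub (R : Type*) [Group R] {V : Type*} [AddCommGroup V] [DistribMulAction R V]
    (W : AddSubgroup V) : Prop := ∃ h : R, ∃ w ∈ W, h • w ≠ w

/-- reduction to an irreducible submodule killed by `q` -/
theorem exists_irr {q : ℕ} (hq : q.Prime) {n : ℕ} (hV : ∀ v : V, q ^ n • v = 0)
    (hcop : (Nat.card R).Coprime q) (hnt : ∃ (h : R) (v : V), h • v ≠ v) :
    ∃ W : AddSubgroup V, InvSub R W ∧ NtSub R W ∧ (∀ w ∈ W, q • w = 0) ∧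
      ∀ U : AddSubgroup V, U ≤ W → InvSub R U → U = ⊥ ∨ U = W := by
  classical
  have := Fintype.ofFinite R
  have hne : {W : AddSubgroup V | InvSub R W ∧ NtSub R W}.Nonempty := by
    obtain ⟨h, v, hv⟩ := hnt
    exact ⟨⊤, fun _ _ _ => AddSubgroup.mem_top _, ⟨h, v, AddSubgroup.mem_top _, hv⟩⟩
  obtain ⟨W, hW⟩ := (Set.toFinite {W : AddSubgroup V | InvSub R W ∧ NtSub R W}).exists_minimal hne
  have hWi : InvSub R W := hW.prop.1
  have hWn : NtSub R W := hW.prop.2
  have hmin : ∀ U : AddSubgroup V, U ≤ W → InvSub R U → U ≠ W → ∀ (h : R), ∀ u ∈ U, h • u = u := by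
    intro U hU hUi hne h u hu
    by_contra hcon
    exact hne (hW.eq_of_le ⟨hUi, ⟨h, u, hu, hcon⟩⟩ hU)
  -- averaging
  obtain ⟨m, hm⟩ : ∃ m : ℕ, ∀ v : V, (m * Nat.card R) • v = v := by
    rcases Nat.eq_zero_or_pos n with h0 | h0
    · subst h0
      refine ⟨0, fun v => ?_⟩
      have := hV v
      rw [pow_zero, one_smul] at this
      rw [this, smul_zero]
    · have hc : (Nat.card R).Coprime (q ^ n) := hcop.pow_right n
      obtain ⟨m, -, hm⟩ := Nat.exists_mul_mod_eq_one_of_coprime hc (Nat.one_lt_pow h0.ne' hq.one_lt)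
      refine ⟨m, fun v => ?_⟩
      have h1 := Nat.div_add_mod (m * Nat.card R) (q ^ n)
      rw [mul_comm m, hm] at h1
      rw [mul_comm m, ← h1, add_smul, mul_comm (q ^ n), mul_smul, hV, smul_zero, zero_add, one_smul]
  let S : V → V := fun v => ∑ h : R, h • v
  have hSfix : ∀ (g : R) (v : V), g • S v = S v := by
    intro g v
    show g • ∑ h : R, h • v = ∑ h : R, h • v
    rw [Finset.smul_sum]
    simp_rw [← mul_smul]
    exact Fintype.sum_equiv (Equiv.mulLeft g) _ _ (fun h => rfl)
  have hSadd : ∀ v w, S (v + w) = S v + S w := by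
    intro v w
    simp only [S, smul_add, Finset.sum_add_distrib]
  have hSg : ∀ (g : R) v, S (g • v) = S v := by
    intro g v
    show ∑ h : R, h • g • v = ∑ h : R, h • v
    simp_rw [← mul_smul]
    exact Fintype.sum_equiv (Equiv.mulRight g) _ _ (fun h => rfl)
  have hSconst : ∀ v, (∀ g : R, g • v = v) → S v = Nat.card R • v := by
    intro v hv
    show ∑ h : R, h • v = _
    rw [Finset.sum_congr rfl (fun h _ => hv h), Finset.sum_const, Finset.card_univ,
      Nat.card_eq_fintype_card]
  have hS0 : S 0 = 0 := by simp [S]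
  have hSneg : ∀ v, S (-v) = - S v := by
    intro v
    simp only [S, smul_neg, Finset.sum_neg_distrib]
  let W' : AddSubgroup V :=
    { carrier := {w | w ∈ W ∧ S w = 0}
      zero_mem' := ⟨W.zero_mem, hS0⟩
      add_mem' := by
        rintro a b ⟨ha, ha'⟩ ⟨hb, hb'⟩
        exact ⟨W.add_mem ha hb, by rw [hSadd, ha', hb', add_zero]⟩
      neg_mem' := by
        rintro a ⟨ha, ha'⟩
        exact ⟨W.neg_mem ha, by rw [hSneg, ha', neg_zero]⟩ }
  have hW'i : InvSub R W' := by
    rintro h w ⟨hw, hw'⟩
    exact ⟨hWi h w hw, by rw [hSg, hw']⟩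
  have hW' : W' = W := by
    by_contra hne'
    obtain ⟨h, w, hw, hhw⟩ := hWn
    apply hhw
    have htriv := hmin W' (fun x hx => hx.1) hW'i hne'
    set e := m • S w with he
    have hefix : ∀ g : R, g • e = e := by
      intro g
      rw [he, smul_comm g m, hSfix]
    have heW : e ∈ W := by
      rw [he]
      apply W.nsmul_mem
      apply W.sum_mem
      intro g _
      exact hWi g w hw
    have hSe : S e = S w := by
      rw [hSconst e hefix, he, ← mul_smul, mul_comm]
      exact hm _
    have hmem : w - e ∈ W' := ⟨W.sub_mem hw heW, by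
      rw [sub_eq_add_neg, hSadd, hSneg, hSe, add_neg_cancel]⟩
    have h1 := htriv h _ hmem
    rw [smul_sub, hefix h] at h1
    exact sub_left_injective h1
  have hS : ∀ w ∈ W, S w = 0 := by
    intro w hw
    rw [← hW'] at hw
    exact hw.2
  have hirr : ∀ U : AddSubgroup V, U ≤ W → InvSub R U → U = ⊥ ∨ U = W := by
    intro U hU hUi
    by_cases h : U = W
    · exact Or.inr h
    · left
      rw [eq_bot_iff]
      intro u hu
      have h1 := hmin U hU hUi h
      have h2 := hS u (hU hu)
      rw [hSconst u (fun g => h1 g u hu)] at h2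
      have h3 := hm u
      rw [mul_smul, h2, smul_zero] at h3
      exact (AddSubgroup.mem_bot).2 h3.symm
  refine ⟨W, hWi, hWn, ?_, hirr⟩
  -- elements killed by `q`
  let U : AddSubgroup V :=
    { carrier := {w | w ∈ W ∧ q • w = 0}
      zero_mem' := ⟨W.zero_mem, smul_zero _⟩
      add_mem' := by
        rintro a b ⟨ha, ha'⟩ ⟨hb, hb'⟩
        exact ⟨W.add_mem ha hb, by rw [smul_add, ha', hb', add_zero]⟩
      neg_mem' := by
        rintro a ⟨ha, ha'⟩
        exact ⟨W.neg_mem ha, by rw [smul_neg, ha', neg_zero]⟩ }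
  have hUi : InvSub R U := by
    rintro h w ⟨hw, hw'⟩
    exact ⟨hWi h w hw, by rw [smul_comm, hw', smul_zero]⟩
  rcases hirr U (fun x hx => hx.1) hUi with h | h
  · exfalso
    obtain ⟨g, w, hw, hgw⟩ := hWn
    have hw0 : w ≠ 0 := by
      rintro rfl
      exact hgw (smul_zero g)
    -- the last nonzero `q ^ i • w`
    have hex : ∃ i, q ^ i • w = 0 := ⟨n, hV w⟩
    have hspec := Nat.find_spec hex
    have hpos : Nat.find hex ≠ 0 := by
      intro h0
      rw [h0, pow_zero, one_smul] at hspec
      exact hw0 hspec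
    obtain ⟨i, hi⟩ := Nat.exists_eq_succ_of_ne_zero hpos
    have hlt : i < Nat.find hex := by omega
    have hne0 := Nat.find_min hex hlt
    apply hne0
    have hmem : q ^ i • w ∈ U := ⟨W.nsmul_mem hw _, by
      rw [hi, Nat.succ_eq_add_one, pow_succ, mul_comm, mul_smul] at hspec
      exact hspec⟩
    rw [h] at hmem
    exact AddSubgroup.mem_bot.1 hmem
  · intro w hw
    rw [← h] at hw
    exact hw.2

/-- the induced linear action on an invariant subgroup killed by `q` -/
noncomputable def linHom (q : ℕ) (W : AddSubgroup V) (hWi : InvSub R W) [Module (ZMod q) W] :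
    R →* (W ≃ₗ[ZMod q] W) where
  toFun h :=
    { toFun := fun w => ⟨h • (w : V), hWi h w w.2⟩
      map_add' := fun v w => Subtype.ext (by simp)
      map_smul' := fun c w => by
        let f : W →+ W := 
          { toFun := fun w => ⟨h • (w : V), hWi h w w.2⟩
            map_zero' := Subtype.ext (by simp)
            map_add' := fun v w => Subtype.ext (by simp) }
        exact ZMod.map_smul f c w
      invFun := fun w => ⟨h⁻¹ • (w : V), hWi h⁻¹ w w.2⟩
      left_inv := fun w => Subtype.ext (by simp)
      right_inv := fun w => Subtype.ext (by simp) }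
  map_one' := by ext w; simp
  map_mul' g h := by
    ext w
    show (g * h) • (w : V) = g • h • (w : V)
    rw [mul_smul]

omit [Finite R] [Finite V] in
theorem linHom_apply (q : ℕ) (W : AddSubgroup V) (hWi : InvSub R W) [Module (ZMod q) W]
    (h : R) (w : W) : ((linHom q W hWi h w : W) : V) = h • (w : V) := rfl

theorem not_ntSub {q : ℕ} [hq : Fact q.Prime] (hq2 : q ≠ 2) (hperf : commutator R = ⊤)
    (hcop : (Nat.card R).Coprime q)
    (horb : ∀ v : V, ∃ a, (MulAction.stabilizer R v).index = 2 ^ a)
    (W : AddSubgroup V) (hWi : InvSub R W) (hWn : NtSub R W)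
    (hirr : ∀ U : AddSubgroup V, U ≤ W → InvSub R U → U = ⊥ ∨ U = W) [Module (ZMod q) W] : False := by
  classical
  have h2 : Fact (Nat.Prime 2) := ⟨Nat.prime_two⟩
  let ψ := linHom q W hWi
  have hψ : ∀ (h : R) (w : W), ((ψ h w : W) : V) = h • (w : V) := fun _ _ => rfl
  obtain ⟨T⟩ : Nonempty (Sylow 2 R) := inferInstance
  set H := ψ.range with hH
  set P := (T : Subgroup R).map ψ with hP
  have hPH : P ≤ H := by
    rw [hP, hH, MonoidHom.range_eq_map]
    exact Subgroup.map_mono le_top
  have hPi : ¬ 2 ∣ P.relIndex H := by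
    have h3 : P.subgroupOf H = (T : Subgroup R).map ψ.rangeRestrict := by
      ext ⟨x, hx⟩
      rw [mem_subgroupOf]
      constructor
      · rintro ⟨t, ht, htx⟩
        exact ⟨t, ht, Subtype.ext htx⟩
      · rintro ⟨t, ht, htx⟩
        exact ⟨t, ht, congrArg Subtype.val htx⟩
    rw [relIndex, h3]
    intro h4
    exact T.not_dvd_index (h4.trans ((T : Subgroup R).index_map_dvd ψ.rangeRestrict_surjective))
  have horb' : ∀ h ∈ H, ∀ w : W, ∃ t ∈ P, h w = t w := by
    rintro _ ⟨r, rfl⟩ w
    obtain ⟨a, ha⟩ := horb (w : V)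
    have hc : ((T : Subgroup R).index).Coprime (MulAction.stabilizer R (w : V)).index := by
      rw [ha]
      apply Nat.Coprime.pow_right
      rw [Nat.coprime_comm]
      exact (Nat.Prime.coprime_iff_not_dvd Nat.prime_two).2 T.not_dvd_index
    obtain ⟨t, ht, s, hs, rfl⟩ := H72.exists_mul_of_coprime_index hc r
    refine ⟨ψ t, ⟨t, ht, rfl⟩, ?_⟩
    apply Subtype.ext
    rw [hψ, hψ, mul_smul, MulAction.mem_stabilizer_iff.1 hs]
  have hI : Irr2 q W H P :=
    { odd := hq2
      le := hPH
      two := T.isPGroup'.map ψ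
      orb := horb'
      perf := by
        have h3 : (commutator R).map ψ.rangeRestrict = commutator H := by
          rw [commutator_def, commutator_def, Subgroup.map_commutator,
            Subgroup.map_top_of_surjective _ ψ.rangeRestrict_surjective]
        rw [← h3, hperf, Subgroup.map_top_of_surjective _ ψ.rangeRestrict_surjective]
      irr := by
        intro U hU
        have hUi : InvSub R (U.toAddSubgroup.map W.subtype) := by
          rintro h _ ⟨u, hu, rfl⟩
          obtain ⟨t, ht, htu⟩ := horb' (ψ h) ⟨h, rfl⟩ u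
          refine ⟨ψ h u, ?_, rfl⟩
          show ψ h u ∈ U
          rw [htu]
          exact hU t ht u hu
        rcases hirr (U.toAddSubgroup.map W.subtype) (by
          rintro _ ⟨u, -, rfl⟩
          exact u.2) hUi with h3 | h3
        · left
          rw [eq_bot_iff]
          intro u hu
          have h4 : (u : V) ∈ U.toAddSubgroup.map W.subtype := ⟨u, hu, rfl⟩
          rw [h3, AddSubgroup.mem_bot] at h4
          exact (Submodule.mem_bot _).2 (Subtype.ext h4)
        · right
          rw [eq_top_iff]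
          intro w _
          have h4 : (w : V) ∈ U.toAddSubgroup.map W.subtype := by rw [h3]; exact w.2
          obtain ⟨u, hu, huw⟩ := h4
          have : u = w := Subtype.ext huw
          rw [← this]; exact hu }
  have hcopH : (Nat.card H).Coprime q :=
    Nat.Coprime.coprime_dvd_left (Subgroup.card_range_dvd ψ) hcop
  have hPbot := hI.eq_bot hPi hcopH
  obtain ⟨h, w, hw, hhw⟩ := hWn
  apply hhw
  obtain ⟨t, ht, htw⟩ := horb' (ψ h) ⟨h, rfl⟩ ⟨w, hw⟩
  rw [hPbot, mem_bot] at ht
  subst ht
  exact congrArg Subtype.val htw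

/-- **T2**: a perfect group of order prime to `q` (odd) acting on an abelian `q`-group with all
orbits of `2`-power size acts trivially. -/
theorem trivial_of_perfect {q : ℕ} [hq : Fact q.Prime] (hq2 : q ≠ 2) {n : ℕ}
    (hV : ∀ v : V, q ^ n • v = 0) (hperf : commutator R = ⊤)
    (hcop : (Nat.card R).Coprime q)
    (horb : ∀ v : V, ∃ a, (MulAction.stabilizer R v).index = 2 ^ a) :
    ∀ (h : R) (v : V), h • v = v := by
  classical
  by_contra hcon
  push Not at hcon
  obtain ⟨W, hWi, hWn, hWq, hirr⟩ := exists_irr hq.out hV hcop hcon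
  letI : Module (ZMod q) W := AddCommGroup.zmodModule (by
    intro w
    exact Subtype.ext (by
      show ((q • w : W) : V) = 0
      rw [AddSubgroup.coe_nsmul]
      exact hWq w w.2))
  exact not_ntSub hq2 hperf hcop horb W hWi hWn hirr

end Act

end Cfsg.Agent.QBaer
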