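import Mathlib
import Cfsg.Agent.H72.ClassSize
import Cfsg.Agent.H72.Basic
import Cfsg.Agent.H49.Core
import Cfsg.Agent.H69.Basic

/-!
# Baer's theorem on `q`-elements of prime power class size, I (helper15)

Elementary steps: elements with coprime class sizes.
-/

set_option autoImplicit false
set_option linter.style.haveILetI false

namespace Cfsg.Agent.QBaer

open Subgroup Cfsg.Agent.H72
open scoped Pointwise

variable {G : Type*} [Group G]

/-- `x` is a `q`-element. -/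
abbrev QEl (q : ℕ) (x : G) : Prop := ∃ k : ℕ, orderOf x = q ^ k

theorem qel_iff {q : ℕ} [Fact q.Prime] {x : G} : QEl q x ↔ ∃ n : ℕ, x ^ q ^ n = 1 := by
  constructor
  · rintro ⟨k, hk⟩
    exact ⟨k, by rw [← hk, pow_orderOf_eq_one]⟩
  · rintro ⟨n, hn⟩
    obtain ⟨k, -, hk⟩ := (Nat.dvd_prime_pow Fact.out).1 (orderOf_dvd_of_pow_eq_one hn)
    exact ⟨k, hk⟩

theorem QEl.conj {q : ℕ} {x : G} (hx : QEl q x) (g : G) : QEl q (g * x * g⁻¹) := by
  obtain ⟨k, hk⟩ := hx
  refine ⟨k, ?_⟩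
  rw [← hk]
  exact (MulAut.conj g).orderOf_eq x

theorem QEl.mul_of_commute {q : ℕ} [Fact q.Prime] {x y : G} (hx : QEl q x) (hy : QEl q y)
    (h : Commute x y) : QEl q (x * y) := by
  obtain ⟨m, hm⟩ := qel_iff.1 hx
  obtain ⟨n, hn⟩ := qel_iff.1 hy
  refine qel_iff.2 ⟨m + n, ?_⟩
  have h1 : x ^ q ^ (m + n) = 1 := by rw [pow_add, pow_mul, hm, one_pow]
  have h2 : y ^ q ^ (m + n) = 1 := by rw [add_comm, pow_add, pow_mul, hn, one_pow]
  rw [h.mul_pow, h1, h2, one_mul]

theorem qel_of_mem {q : ℕ} [Fact q.Prime] {P : Subgroup G} (hP : IsPGroup q P) {x : G}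
    (hx : x ∈ P) : QEl q x := by
  obtain ⟨m, hm⟩ := hP ⟨x, hx⟩
  exact qel_iff.2 ⟨m, by simpa using congrArg Subtype.val hm⟩

theorem QEl.exists_sylow {q : ℕ} [Fact q.Prime] {x : G} (hx : QEl q x) :
    ∃ P : Sylow q G, x ∈ (P : Subgroup G) := by
  obtain ⟨P, hP⟩ := (isPGroup_zpowers_of_orderOf hx).exists_le_sylow
  exact ⟨P, hP (mem_zpowers x)⟩

theorem Cx_index_conj (g x : G) : (Cx (g * x * g⁻¹)).index = (Cx x).index := by
  rw [← card_Cl, ← card_Cl]
  congr 2
  ext u
  constructor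
  · rintro ⟨h, rfl⟩
    exact ⟨h * g, by simp [mul_assoc]⟩
  · rintro ⟨h, rfl⟩
    exact ⟨h * g⁻¹, by simp [mul_assoc]⟩

variable [Finite G]

/-- If the class size of `x` is prime to `s` then `x` centralizes `O_s(G)`. -/
theorem commute_of_mem_pCore {s : ℕ} [Fact s.Prime] {x : G} (h : ¬ s ∣ (Cx x).index) {k : G}
    (hk : k ∈ Cfsg.pCore s G) : Commute x k := by
  obtain ⟨P, hP⟩ := exists_sylow_le_of_not_dvd_index (Cx x) h
  have := mem_Cx.1 (hP (H49.pCore_le_sylow P hk))
  exact this.symm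

theorem exists_sylow_central {q : ℕ} [Fact q.Prime] {x : G} (hx : QEl q x)
    (h : ¬ q ∣ (Cx x).index) : ∃ P : Sylow q G, x ∈ (P : Subgroup G) ∧ (P : Subgroup G) ≤ Cx x := by
  obtain ⟨P, hP⟩ := exists_sylow_le_of_not_dvd_index (Cx x) h
  refine ⟨P, ?_, hP⟩
  refine mem_sylow_of_smul_eq P (isPGroup_zpowers_of_orderOf hx) ?_
  rw [Sylow.smul_eq_iff_mem_normalizer]
  show x ∈ normalizer ((P : Subgroup G) : Set G)
  rw [Subgroup.mem_normalizer_iff]
  intro u
  constructor
  · intro hu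
    have h1 : u * x = x * u := mem_Cx.1 (hP hu)
    have h2 : x * u * x⁻¹ = u := by rw [← h1]; group
    rw [h2]; exact hu
  · intro hu
    have h1 : (x * u * x⁻¹) * x = x * (x * u * x⁻¹) := mem_Cx.1 (hP hu)
    have h2 : u = x * u * x⁻¹ := by
      have h3 : x * u = x * (x * u * x⁻¹) := by rw [← h1]; group
      exact mul_left_cancel h3
    rw [h2]; exact hu

/-- Factorization `G = P C(x)` when the class size is a `q`-power. -/
theorem exists_conj_sylow {q : ℕ} [Fact q.Prime] {x : G} {a : ℕ} (h : (Cx x).index = q ^ a)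
    (P : Sylow q G) (g : G) : ∃ u ∈ (P : Subgroup G), g * x * g⁻¹ = u * x * u⁻¹ := by
  have hc : ((P : Subgroup G).index).Coprime (Cx x).index := by
    rw [h]
    apply Nat.Coprime.pow_right
    rw [Nat.coprime_comm]
    exact (Nat.Prime.coprime_iff_not_dvd Fact.out).2 P.not_dvd_index
  obtain ⟨u, hu, c, hcx, rfl⟩ := exists_mul_of_coprime_index hc g
  refine ⟨u, hu, ?_⟩
  have h1 : c * x = x * c := mem_Cx.1 hcx
  calc u * c * x * (u * c)⁻¹ = u * (c * x) * c⁻¹ * u⁻¹ := by group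
    _ = u * x * u⁻¹ := by rw [h1]; group

/-- Step 1: a `q`-element with `q`-power class size lies in `O_q(G)`. -/
theorem mem_pCore_of_index_pow {q : ℕ} [Fact q.Prime] {x : G} (hx : QEl q x) {a : ℕ}
    (h : (Cx x).index = q ^ a) : x ∈ Cfsg.pCore q G := by
  obtain ⟨P, hP⟩ := hx.exists_sylow
  have h1 : normalClosure ({x} : Set G) ≤ (P : Subgroup G) := by
    rw [normalClosure, closure_le]
    intro z hz
    rw [Group.mem_conjugatesOfSet_iff] at hz
    obtain ⟨w, hw, hwz⟩ := hz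
    rw [Set.mem_singleton_iff] at hw
    subst hw
    obtain ⟨c, hc⟩ := isConj_iff.1 hwz
    obtain ⟨u, hu, hux⟩ := exists_conj_sylow h P c
    rw [← hc, hux]
    exact mul_mem (mul_mem hu hP) (inv_mem hu)
  exact H49.le_pCore normalClosure_normal (P.isPGroup'.to_le h1)
    (subset_normalClosure (Set.mem_singleton x))

theorem mem_stab_iff {y u : G} : u ∈ MulAction.stabilizer G (Cl y) ↔ ∀ v ∈ Cl y, u * v ∈ Cl y := by
  rw [MulAction.mem_stabilizer_set_iff_smul_set_subset (Set.toFinite _)]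
  constructor
  · intro h v hv
    exact h (Set.smul_mem_smul_set hv)
  · rintro h _ ⟨v, hv, rfl⟩
    exact h v hv

theorem stab_normal (y : G) : (MulAction.stabilizer G (Cl y)).Normal := by
  constructor
  intro u hu g
  rw [mem_stab_iff] at hu ⊢
  intro v hv
  have h1 : g⁻¹ * v * g ∈ Cl y := by
    have := (mem_Cl_conj (x := y) (u := v) g⁻¹).1 hv
    rwa [inv_inv] at this
  have h2 := hu _ h1
  have h3 := (mem_Cl_conj (x := y) g).1 h2
  have h4 : g * (u * (g⁻¹ * v * g)) * g⁻¹ = g * u * g⁻¹ * v := by group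
  rwa [h4] at h3

/-- left translations: the stabilizer of a subset has order dividing its size -/
theorem card_stabilizer_dvd (S : Set G) : Nat.card (MulAction.stabilizer G S) ∣ Nat.card S := by
  classical
  let U := MulAction.stabilizer G S
  have hU : ∀ (u : U) (s : S), (u : G) * s ∈ S := fun u s => by
    have h1 : (u : G) • S = S := u.2
    have h2 : (u : G) • (s : G) ∈ (u : G) • S := Set.smul_mem_smul_set s.2
    rw [h1] at h2
    exact h2
  letI act : MulAction U S :=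
    { smul := fun u s => ⟨(u : G) * s, hU u s⟩
      one_smul := fun s => Subtype.ext (one_mul (s : G))
      mul_smul := fun u v s => Subtype.ext (mul_assoc (u : G) v s) }
  have hdef : ∀ (u : U) (s : S), ((u • s : S) : G) = (u : G) * s := fun _ _ => rfl
  have := Fintype.ofFinite U
  have := Fintype.ofFinite S
  have := Fintype.ofFinite (MulAction.orbitRel.Quotient U S)
  have hst : ∀ s : S, MulAction.stabilizer U s = ⊥ := by
    intro s
    rw [eq_bot_iff]
    intro u hu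
    rw [MulAction.mem_stabilizer_iff] at hu
    have h1 : (u : G) * s = s := by rw [← hdef, hu]
    rw [mem_bot]
    exact Subtype.ext (by simpa using h1)
  have key := MulAction.selfEquivSigmaOrbitsQuotientStabilizer U S
  have h2 : Nat.card S = Nat.card (MulAction.orbitRel.Quotient U S) * Nat.card U := by
    rw [Nat.card_congr key, Nat.card_sigma]
    have h3 : ∀ ω : MulAction.orbitRel.Quotient U S,
        Nat.card (U ⧸ MulAction.stabilizer U ω.out) = Nat.card U := by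
      intro ω
      rw [hst]
      exact Nat.card_congr (QuotientGroup.quotientBot (G := U)).toEquiv
    rw [Finset.sum_congr rfl (fun ω _ => h3 ω), Finset.sum_const, Finset.card_univ,
      Nat.card_eq_fintype_card (α := MulAction.orbitRel.Quotient U S), smul_eq_mul]
  rw [h2]
  exact Dvd.intro_left _ rfl

theorem stab_le_pCore {s : ℕ} [Fact s.Prime] {y : G} {b : ℕ} (h : (Cx y).index = s ^ b) :
    MulAction.stabilizer G (Cl y) ≤ Cfsg.pCore s G := by
  have h1 := card_stabilizer_dvd (Cl y)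
  rw [card_Cl, h] at h1
  obtain ⟨k, -, hk⟩ := (Nat.dvd_prime_pow Fact.out).1 h1
  exact H49.le_pCore (stab_normal y) (IsPGroup.of_card hk)

theorem mul_mem_Cl_mul {x y : G} (hc : (Cx x).index.Coprime (Cx y).index)
    (g : G) {v : G} (hv : v ∈ Cl y) : (g * x * g⁻¹) * v ∈ Cl (x * y) := by
  obtain ⟨h, rfl⟩ := hv
  obtain ⟨c, hcx, d, hdy, he⟩ := exists_mul_of_coprime_index hc (g⁻¹ * h)
  refine ⟨g * c, ?_⟩
  have h1 : c * x = x * c := mem_Cx.1 hcx
  have h2 : d * y = y * d := mem_Cx.1 hdy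
  have h3 : g * c = h * d⁻¹ := by
    have : h = g * (c * d) := by rw [← he]; group
    rw [this]; group
  have h4 : (g * c) * x * (g * c)⁻¹ = g * x * g⁻¹ := by
    calc (g * c) * x * (g * c)⁻¹ = g * (c * x) * c⁻¹ * g⁻¹ := by group
      _ = g * x * g⁻¹ := by rw [h1]; group
  have h5 : (h * d⁻¹) * y * (h * d⁻¹)⁻¹ = h * y * h⁻¹ := by
    calc (h * d⁻¹) * y * (h * d⁻¹)⁻¹ = h * d⁻¹ * (y * d) * h⁻¹ := by group
      _ = h * y * h⁻¹ := by rw [← h2]; group
  show g * c * (x * y) * (g * c)⁻¹ = g * x * g⁻¹ * (h * y * h⁻¹)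
  calc g * c * (x * y) * (g * c)⁻¹ = ((g * c) * x * (g * c)⁻¹) * ((g * c) * y * (g * c)⁻¹) := by group
    _ = (g * x * g⁻¹) * (h * y * h⁻¹) := by rw [h4, h3, h5]

theorem smul_Cl_eq {x y : G} (hc : (Cx x).index.Coprime (Cx y).index)
    (he : (Cx (x * y)).index = (Cx y).index) (g : G) : (g * x * g⁻¹) • Cl y = Cl (x * y) := by
  apply Set.eq_of_subset_of_ncard_le
  · rintro _ ⟨v, hv, rfl⟩
    exact mul_mem_Cl_mul hc g hv
  · rw [Set.ncard_smul_set, ← Nat.card_coe_set_eq, ← Nat.card_coe_set_eq, card_Cl, card_Cl, he]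
  · exact Set.toFinite _

theorem step_mem {x y : G} (hc : (Cx x).index.Coprime (Cx y).index)
    (he : (Cx (x * y)).index = (Cx y).index) (g : G) :
    x⁻¹ * (g * x * g⁻¹) ∈ MulAction.stabilizer G (Cl y) := by
  rw [MulAction.mem_stabilizer_iff, mul_smul, smul_Cl_eq hc he g, inv_smul_eq_iff]
  have := smul_Cl_eq hc he 1
  rw [← this]
  simp

/-- Step 2. -/
theorem step_two {x y : G} (hc : (Cx x).index.Coprime (Cx y).index)
    (he : (Cx (x * y)).index = (Cx y).index) {s b : ℕ} [Fact s.Prime] (hs : (Cx y).index = s ^ b)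
    (g : G) : x⁻¹ * (g * x * g⁻¹) ∈ Cfsg.pCore s G ∧ x⁻¹ * (g * x * g⁻¹) * y ∈ Cl y := by
  have h := step_mem hc he g
  exact ⟨stab_le_pCore hs h, mem_stab_iff.1 h y (mem_Cl_self y)⟩

theorem central_of_ne {q : ℕ} [Fact q.Prime] {x y : G} (hx : QEl q x)
    (hc : (Cx x).index.Coprime (Cx y).index)
    (he : (Cx (x * y)).index = (Cx y).index) {s b : ℕ} [hs' : Fact s.Prime]
    (hs : (Cx y).index = s ^ b) (hb : b ≠ 0) (hsq : s ≠ q) : (Cx x).index = 1 := by
  have hsx : ¬ s ∣ (Cx x).index := by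
    intro hd
    have h1 : s ∣ (Cx y).index := by rw [hs]; exact dvd_pow_self _ hb
    have h2 := Nat.dvd_gcd hd h1
    rw [hc.gcd_eq_one] at h2
    exact hs'.out.one_lt.ne' (Nat.dvd_one.1 h2)
  rw [Cx_index_eq_one_iff, mem_center_iff]
  intro g
  set k := x⁻¹ * (g * x * g⁻¹) with hk
  have hkm : k ∈ Cfsg.pCore s G := (step_two hc he hs g).1
  have hcom : Commute x k := commute_of_mem_pCore hsx hkm
  have hxk : g * x * g⁻¹ = x * k := by rw [hk]; group
  obtain ⟨n, hn⟩ := qel_iff.1 hx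
  obtain ⟨m, hm⟩ := qel_iff.1 (hx.conj g)
  have h1 : x ^ q ^ (m + n) = 1 := by rw [add_comm, pow_add, pow_mul, hn, one_pow]
  have h2 : (g * x * g⁻¹) ^ q ^ (m + n) = 1 := by rw [pow_add, pow_mul, hm, one_pow]
  rw [hxk, hcom.mul_pow, h1, one_mul] at h2
  have h3 : k = 1 := H49.eq_one_of_coprime_of_pGroup (H49.pCore_isPGroup s) hkm
    (Nat.Coprime.pow_left _ ((Nat.coprime_primes Fact.out hs'.out).2 hsq.symm)) h2
  rw [h3, mul_one] at hxk
  rwa [mul_inv_eq_iff_eq_mul] at hxk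
  
end Cfsg.Agent.QBaer
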